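import Mathlib
import Cfsg.Prelude.Def_LieTypeDatum
import Cfsg.Agent.Lib.Helper18.OrthRefl

set_option autoImplicit false

/-!
# Automorphisms of `PΩ(Q)` induced by similarities

`cG : ↥(GO Q) →* MulAut (POmega F Q)` (conjugation by a similarity), bridges to the predicates of
`Def_LieTypeDatum`, and the description of `pgoAut`, `poAut`, `psoAut`, `Inn` as images under `cG`.
-/

namespace Cfsg.Agent.Lib.Helper6.OA

open Matrix

section functor

variable {X : Type*} [Group X]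

theorem char_mem_iff (H : Subgroup X) [hH : H.Characteristic] (φ : MulAut X) (x : X) :
    φ x ∈ H ↔ x ∈ H := by
  have := SetLike.ext_iff.1 (hH.fixed φ) x
  simpa using this

/-- restriction of automorphisms to a characteristic subgroup -/
def resAut (H : Subgroup X) [H.Characteristic] : MulAut X →* MulAut ↥H where
  toFun φ :=
    { toFun := fun s => ⟨φ s.1, (char_mem_iff H φ s.1).2 s.2⟩
      invFun := fun s => ⟨φ⁻¹ s.1, (char_mem_iff H φ⁻¹ s.1).2 s.2⟩
      left_inv := fun s => Subtype.ext (by simp)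
      right_inv := fun s => Subtype.ext (by simp)
      map_mul' := fun s t => Subtype.ext (by simp) }
  map_one' := by ext s; rfl
  map_mul' φ ψ := by ext s; rfl

@[simp] theorem resAut_coe (H : Subgroup X) [H.Characteristic] (φ : MulAut X) (s : ↥H) :
    ((resAut H φ s : ↥H) : X) = φ s.1 := rfl

/-- automorphisms induced on the quotient by a characteristic subgroup -/
def quotAut (H : Subgroup X) [hH : H.Characteristic] : MulAut X →* MulAut (X ⧸ H) where
  toFun φ := QuotientGroup.congr H H φ (Subgroup.characteristic_iff_map_eq.1 hH φ)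
  map_one' := by
    ext x
    induction x using QuotientGroup.induction_on with
    | H x => rfl
  map_mul' φ ψ := by
    ext x
    induction x using QuotientGroup.induction_on with
    | H x => rfl

@[simp] theorem quotAut_mk (H : Subgroup X) [H.Characteristic] (φ : MulAut X) (x : X) :
    quotAut H φ (QuotientGroup.mk x) = QuotientGroup.mk (φ x) := rfl

/-- the functor `X ↦ [X,X]/Z([X,X])` on automorphisms -/
def pcAut : MulAut X →* MulAut (↥(commutator X) ⧸ Subgroup.center ↥(commutator X)) :=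
  (quotAut (Subgroup.center ↥(commutator X))).comp (resAut (commutator X))

theorem pcAut_mk (φ : MulAut X) (s : ↥(commutator X)) :
    pcAut φ (QuotientGroup.mk s) = QuotientGroup.mk (resAut (commutator X) φ s) := rfl

end functor

section orth

open Cfsg.Agent.Lib.Helper18

variable {ι : Type} [Fintype ι] [DecidableEq ι] {F : Type*} [Field F] (Q : (ι → F) → F)

/-- the similarity group -/
abbrev GO : Subgroup (GL ι F) := Cfsg.Geo.quadSimilarityGroup (F := F) Q

theorem O_le_GO : Cfsg.isometryGroup F Q ≤ GO Q := by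
  intro g hg
  exact ⟨1, fun v => by rw [(mem_iso_iff g).1 hg v]; simp⟩

variable {Q}

theorem conj_mem_O {g h : GL ι F} (hg : g ∈ GO Q) (hh : h ∈ Cfsg.isometryGroup F Q) :
    g * h * g⁻¹ ∈ Cfsg.isometryGroup F Q := by
  obtain ⟨c, hc⟩ := hg
  rw [mem_iso_iff] at hh ⊢
  intro x
  have h1 : ((g * h * g⁻¹ : GL ι F) : Matrix ι ι F) *ᵥ x =
      (g : Matrix ι ι F) *ᵥ ((h : Matrix ι ι F) *ᵥ (((g⁻¹ : GL ι F) : Matrix ι ι F) *ᵥ x)) := by
    simp [Matrix.mulVec_mulVec, Matrix.mul_assoc]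
  rw [h1, hc, hh, ← hc, Matrix.mulVec_mulVec, ← Units.val_mul, mul_inv_cancel, Units.val_one,
    Matrix.one_mulVec]

variable (Q)

/-- conjugation by a similarity, on the isometry group -/
def cI : ↥(GO Q) →* MulAut ↥(Cfsg.isometryGroup F Q) where
  toFun g :=
    { toFun := fun h => ⟨g.1 * h.1 * g.1⁻¹, conj_mem_O g.2 h.2⟩
      invFun := fun h => ⟨g.1⁻¹ * h.1 * g.1, by
        have := conj_mem_O (inv_mem g.2) h.2
        rwa [inv_inv] at this⟩
      left_inv := fun h => Subtype.ext (by simp [mul_assoc])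
      right_inv := fun h => Subtype.ext (by simp [mul_assoc])
      map_mul' := fun h k => Subtype.ext (by simp [mul_assoc]) }
  map_one' := by ext h; simp
  map_mul' a b := by
    ext h : 2
    simp [mul_assoc]

@[simp] theorem cI_coe (g : ↥(GO Q)) (h : ↥(Cfsg.isometryGroup F Q)) :
    ((cI Q g h : ↥(Cfsg.isometryGroup F Q)) : GL ι F) = g.1 * h.1 * g.1⁻¹ := rfl

/-- conjugation by a similarity, on `PΩ(Q)` -/
def cG : ↥(GO Q) →* MulAut (Cfsg.POmega F Q) := pcAut.comp (cI Q)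

/-- conjugation by a similarity, on `Ω(Q)` -/
def cO : ↥(GO Q) →* MulAut ↥(Cfsg.Omega F Q) :=
  (resAut (commutator ↥(Cfsg.isometryGroup F Q))).comp (cI Q)

theorem cG_mk (g : ↥(GO Q)) (s : ↥(Cfsg.Omega F Q)) :
    cG Q g (QuotientGroup.mk s) = QuotientGroup.mk (cO Q g s) := rfl

@[simp] theorem cO_coe (g : ↥(GO Q)) (s : ↥(Cfsg.Omega F Q)) :
    (((cO Q g s : ↥(Cfsg.Omega F Q)) : ↥(Cfsg.isometryGroup F Q)) : GL ι F) =
      g.1 * s.1.1 * g.1⁻¹ := rfl

omit [Fintype ι] [DecidableEq ι] in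
theorem map_refl (M : Matrix ι ι F) : M.map (RingEquiv.refl F) = M := by
  ext i j; rfl

theorem induced_cG (g : ↥(GO Q)) :
    Cfsg.IsInducedBySemilinearPOmega Q g.1 (RingEquiv.refl F) (cG Q g) := by
  intro s s' h
  rw [cG_mk]
  congr 1
  apply Subtype.ext
  apply Subtype.ext
  apply Units.ext
  rw [h, map_refl]
  rfl

theorem eq_cG_of_induced {g : GL ι F} (hg : g ∈ GO Q) {β : Cfsg.POmega F Q ≃* Cfsg.POmega F Q}
    (h : Cfsg.IsInducedBySemilinearPOmega Q g (RingEquiv.refl F) β) : β = cG Q ⟨g, hg⟩ := by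
  ext x
  induction x using QuotientGroup.induction_on with
  | H s =>
    rw [cG_mk]
    apply h
    rw [map_refl]
    rfl

/-- the subgroup of `Aut(PΩ)` generated by the automorphisms induced by a set of similarities -/
theorem autSubgroupOf_eq (S : Set (GL ι F)) (hS : ∀ g ∈ S, g ∈ GO Q) :
    Cfsg.autSubgroupOf (fun β : Cfsg.POmega F Q ≃* Cfsg.POmega F Q =>
      ∃ g : GL ι F, g ∈ S ∧ Cfsg.IsInducedBySemilinearPOmega Q g (RingEquiv.refl F) β) =
    (Subgroup.closure {g : ↥(GO Q) | g.1 ∈ S}).map (cG Q) := by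
  unfold Cfsg.autSubgroupOf
  rw [MonoidHom.map_closure]
  congr 1
  ext β
  constructor
  · rintro ⟨g, hg, h⟩
    exact ⟨⟨g, hS g hg⟩, hg, (eq_cG_of_induced Q (hS g hg) h).symm⟩
  · rintro ⟨g, hg, rfl⟩
    exact ⟨g.1, hg, induced_cG Q g⟩

theorem autSubgroupOf_eq' (A : Subgroup (GL ι F)) (hA : A ≤ GO Q) :
    Cfsg.autSubgroupOf (fun β : Cfsg.POmega F Q ≃* Cfsg.POmega F Q =>
      ∃ g : GL ι F, g ∈ A ∧ Cfsg.IsInducedBySemilinearPOmega Q g (RingEquiv.refl F) β) =
    (A.subgroupOf (GO Q)).map (cG Q) := by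
  refine (autSubgroupOf_eq Q (A : Set (GL ι F)) (fun g hg => hA hg)).trans ?_
  congr 1
  exact Subgroup.closure_eq (A.subgroupOf (GO Q))

theorem pgoAut_eq : Cfsg.pgoAut F Q = (cG Q).range := by
  have := autSubgroupOf_eq' Q (GO Q) le_rfl
  rw [Subgroup.subgroupOf_self, ← MonoidHom.range_eq_map] at this
  exact this

theorem poAut_eq : Cfsg.poAut F Q = ((Cfsg.isometryGroup F Q).subgroupOf (GO Q)).map (cG Q) :=
  autSubgroupOf_eq' Q _ (O_le_GO Q)

theorem psoAut_eq :
    Cfsg.psoAut F Q = ((Cfsg.specialIsometryGL F Q).subgroupOf (GO Q)).map (cG Q) :=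
  autSubgroupOf_eq' Q _ (inf_le_left.trans (O_le_GO Q))

/-- `Ω(Q)` as a subgroup of the similarity group -/
def OmE : Subgroup ↥(GO Q) := (Cfsg.Omega F Q).map (Subgroup.inclusion (O_le_GO Q))

theorem mem_OmE (g : ↥(GO Q)) :
    g ∈ OmE Q ↔ ∃ h : g.1 ∈ Cfsg.isometryGroup F Q, (⟨g.1, h⟩ : ↥(Cfsg.isometryGroup F Q)) ∈ Cfsg.Omega F Q := by
  constructor
  · rintro ⟨s, hs, rfl⟩
    exact ⟨s.2, hs⟩
  · rintro ⟨h, hs⟩
    exact ⟨⟨g.1, h⟩, hs, rfl⟩

theorem conj_mk_eq (s : ↥(Cfsg.Omega F Q)) :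
    MulAut.conj (QuotientGroup.mk s : Cfsg.POmega F Q) =
      cG Q (Subgroup.inclusion (O_le_GO Q) s.1) := by
  ext x
  induction x using QuotientGroup.induction_on with
  | H t =>
    rw [cG_mk, MulAut.conj_apply, ← QuotientGroup.mk_inv, ← QuotientGroup.mk_mul,
      ← QuotientGroup.mk_mul]
    congr 1

theorem Inn_eq : Cfsg.Inn (Cfsg.POmega F Q) = (OmE Q).map (cG Q) := by
  ext β
  constructor
  · rintro ⟨x, rfl⟩
    induction x using QuotientGroup.induction_on with
    | H s => exact ⟨_, ⟨s.1, s.2, rfl⟩, (conj_mk_eq Q s).symm⟩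
  · rintro ⟨g, ⟨s, hs, rfl⟩, rfl⟩
    exact ⟨QuotientGroup.mk ⟨s, hs⟩, conj_mk_eq Q ⟨s, hs⟩⟩

end orth

end Cfsg.Agent.Lib.Helper6.OA
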