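import Mathlib
import Cfsg.Agent.Lib.Helper18.OmegaCenter

set_option autoImplicit false

/-!
Generalisation of `Helper18.OmegaCenter.scalar_of_centralizes` (proof copied from there): a LINEAR MAP
preserving singular vectors and commuting with `Ω` is a scalar.
-/

namespace Cfsg.Agent.Lib.Helper6.OA

open QuadraticMap Module
open Cfsg.Agent.Lib.Helper49 Cfsg.Agent.Lib.Helper18.OmegaCenter

section

variable {F V : Type*} [Field F] [Finite F] [AddCommGroup V] [Module F V] [FiniteDimensional F V]
  {Q : QuadraticForm F V}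

/-- step A for the model vector -/
theorem eigen_model (hQ : (polarBilin Q).Nondegenerate) {e f : Fin 3 → V} (h : Frame3 Q e f)
    (z : V →ₗ[F] V) (hz : ∀ k ∈ commutator (OG Q), ∀ x, z (k.1 x) = k.1 (z x)) (c : F) (hc : c ≠ 0) :
    ∃ α : F, z (e 0 + c • f 0) = α • (e 0 + c • f 0) := by
  set a := e 0 + c • f 0 with ha
  set x := (-c) • f 0 with hx
  have hQa : Q a = c := h.Q_hyp 0 c
  have key : ∀ j : Fin 3, j ≠ 0 → z a =
      - ((c⁻¹ * polar Q a (z x)) • a) - (c⁻¹ * polar Q (e j + c • f j) (z x)) • (e j + c • f j) := by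
    intro j hj
    set b := e j + c • f j with hb
    have hQb : Q b = c := h.Q_hyp j c
    have hab : polar Q a b = 0 := by
      simp only [ha, hb, polar_add_left, polar_add_right, polar_smul_left, polar_smul_right,
        h.ee, h.ff, h.ef, h.fe, smul_eq_mul]
      simp [hj, hj.symm]
    have hk : refl Q a * refl Q b ∈ commutator (OG Q) :=
      refl_mul_refl_mem_commutator_of_eq Q hQ a b (by rw [hQa]; exact hc) (by rw [hQa, hQb])
    have h1 : (refl Q a * refl Q b).1 x = x + a := by
      rw [refl_mul_refl_apply a b x hab, hQa, hQb]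
      have e1 : polar Q a x = -c := by
        simp only [ha, hx, polar_add_left, polar_smul_left, polar_smul_right, h.ef, h.ff,
          smul_eq_mul]
        simp
      have e2 : polar Q b x = 0 := by
        simp only [hb, hx, polar_add_left, polar_smul_left, polar_smul_right, h.ef, h.ff,
          smul_eq_mul]
        simp [hj]
      rw [e1, e2]
      have : c⁻¹ * -c = -1 := by field_simp
      rw [this]
      simp
    have h2 : z ((refl Q a * refl Q b).1 x) = (refl Q a * refl Q b).1 (z x) := by
      exact hz _ hk x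
    rw [h1, map_add, refl_mul_refl_apply a b _ hab, hQa, hQb] at h2
    have h3 : z a = (z x + z a) - z x := by abel
    rw [h3, h2]
    abel
  have k1 := key 1 (by decide)
  have k2 := key 2 (by decide)
  -- pair with `f 1`
  have p1 : polar Q (f 1) (z a) = - (c⁻¹ * polar Q (e 1 + c • f 1) (z x)) := by
    rw [k1]
    simp only [ha, polar_sub_right, polar_neg_right, polar_add_right, polar_smul_right, h.fe, h.ff,
      smul_eq_mul]
    simp
  have p2 : polar Q (f 1) (z a) = 0 := by
    rw [k2]
    simp only [ha, polar_sub_right, polar_neg_right, polar_add_right, polar_smul_right, h.fe, h.ff,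
      smul_eq_mul]
    simp
  rw [p2] at p1
  have p3 : c⁻¹ * polar Q (e 1 + c • f 1) (z x) = 0 := by
    have := p1.symm
    rwa [neg_eq_zero] at this
  rw [p3, zero_smul, sub_zero] at k1
  exact ⟨-(c⁻¹ * polar Q a (z x)), by rw [k1, neg_smul]⟩

/-- step A: every nonsingular vector is an eigenvector -/
theorem eigen_nonsingular (hQ : (polarBilin Q).Nondegenerate) {e f : Fin 3 → V} (h : Frame3 Q e f)
    (z : V →ₗ[F] V) (hz : ∀ k ∈ commutator (OG Q), ∀ x, z (k.1 x) = k.1 (z x)) (a : V) (ha : Q a ≠ 0) :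
    ∃ α : F, z a = α • a := by
  obtain ⟨c, hc⟩ : ∃ c, c = Q a := ⟨_, rfl⟩
  have h0 : Q (e 0 + c • f 0) = Q a := by rw [h.Q_hyp 0 _, hc]
  obtain ⟨g, hg⟩ := exists_OG_map_vec Q hQ (e 0 + c • f 0) a
    (ne_zero_of_Q_ne_zero Q (by rw [h0]; exact ha)) (ne_zero_of_Q_ne_zero Q ha) h0
  obtain ⟨α, hα⟩ := eigen_model hQ (h.map g) z hz c (by rw [hc]; exact ha)
  refine ⟨α, ?_⟩
  have : g.1 (e 0) + c • g.1 (f 0) = a := by rw [← hg, map_add, map_smul]
  rwa [this] at hα

omit [Finite F] [FiniteDimensional F V] in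
/-- step B1 -/
theorem eigen_singular {z : V →ₗ[F] V} (hsing : ∀ u, Q u = 0 → Q (z u) = 0)
    (hA : ∀ a : V, Q a ≠ 0 → ∃ α : F, z a = α • a) (a u : V) (α : F) (ha : Q a ≠ 0)
    (hu : Q u = 0) (hau : polar Q a u = 0) (hα : z a = α • a) : z u = α • u := by
  have h1 : Q (a + u) = Q a := by rw [Q_add_eq, hu, hau]; ring
  obtain ⟨β, hβ⟩ := hA (a + u) (by rw [h1]; exact ha)
  have h2 : z u = (β - α) • a + β • u := by
    have : z u = z (a + u) - z a := by rw [map_add]; abel
    rw [this, hβ, hα, smul_add, sub_smul]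
    abel
  have h3 : Q (z u) = (β - α) ^ 2 * Q a := by
    rw [h2, Q_add_eq, QuadraticMap.map_smul, QuadraticMap.map_smul, hu, polar_smul_left,
      polar_smul_right, hau]
    simp only [smul_eq_mul]
    ring
  rw [hsing u hu] at h3
  have h4 : β - α = 0 := by
    have := h3.symm
    rcases mul_eq_zero.1 this with h | h
    · exact pow_eq_zero_iff (two_ne_zero) |>.1 h
    · exact absurd h ha
  have h5 : β = α := sub_eq_zero.1 h4
  rw [h2, h5]
  simp

/-- an isometry centralising the commutator subgroup of the orthogonal group is a scalar `±1`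
(Witt index at least three). -/
theorem scalar_of_centralizes (hQ : (polarBilin Q).Nondegenerate) {e f : Fin 3 → V}
    (h : Frame3 Q e f) (z : V →ₗ[F] V) (hsing : ∀ u, Q u = 0 → Q (z u) = 0)
    (hz : ∀ k ∈ commutator (OG Q), ∀ x, z (k.1 x) = k.1 (z x)) :
    ∃ l : F, ∀ x, z x = l • x := by
  have hA := eigen_nonsingular hQ h z hz
  have hp : ∀ i, Q (e i + f i) = 1 := by
    intro i
    have := h.Q_hyp i 1
    rwa [one_smul] at this
  obtain ⟨l, hl⟩ := hA (e 0 + f 0) (by rw [hp]; exact one_ne_zero)
  have he1 : z (e 1) = l • e 1 := by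
    apply eigen_singular hsing hA (e 0 + f 0) (e 1) l (by rw [hp]; exact one_ne_zero) (h.Qe 1) _ hl
    rw [polar_add_left, h.ee, h.fe]; simp
  have hf1 : z (f 1) = l • f 1 := by
    apply eigen_singular hsing hA (e 0 + f 0) (f 1) l (by rw [hp]; exact one_ne_zero) (h.Qf 1) _ hl
    rw [polar_add_left, h.ef, h.ff]; simp
  have hl1 : z (e 1 + f 1) = l • (e 1 + f 1) := by rw [map_add, he1, hf1, smul_add]
  have he0 : z (e 0) = l • e 0 := by
    apply eigen_singular hsing hA (e 1 + f 1) (e 0) l (by rw [hp]; exact one_ne_zero) (h.Qe 0) _ hl1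
    rw [polar_add_left, h.ee, h.fe]; simp
  have hf0 : z (f 0) = l • f 0 := by
    apply eigen_singular hsing hA (e 1 + f 1) (f 0) l (by rw [hp]; exact one_ne_zero) (h.Qf 0) _ hl1
    rw [polar_add_left, h.ef, h.ff]; simp
  have he0ne : e 0 ≠ 0 := by
    intro h0
    have := h.ef 0 0
    rw [h0] at this
    simp at this
  refine ⟨l, ?_⟩
  · intro x
    set w := x - polar Q x (f 0) • e 0 - polar Q x (e 0) • f 0 with hw
    have hwe : polar Q w (e 0) = 0 := by
      simp only [hw, polar_sub_left, polar_smul_left, h.ee, h.fe, smul_eq_mul]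
      simp
    have hwf : polar Q w (f 0) = 0 := by
      simp only [hw, polar_sub_left, polar_smul_left, h.ef, h.ff, smul_eq_mul]
      simp
    have hzw : z w = l • w := by
      by_cases hQw : Q w = 0
      · apply eigen_singular hsing hA (e 0 + f 0) w l (by rw [hp]; exact one_ne_zero) hQw _ hl
        rw [polar_comm, polar_add_right, hwe, hwf, add_zero]
      · obtain ⟨α, hα⟩ := hA w hQw
        have := eigen_singular hsing hA w (e 0) α hQw (h.Qe 0) hwe hα
        rw [he0] at this
        have h6 : (l - α) • e 0 = 0 := by rw [sub_smul, this, sub_self]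
        rcases smul_eq_zero.1 h6 with h7 | h7
        · rw [hα, sub_eq_zero.1 h7]
        · exact absurd h7 he0ne
    have hx : x = w + polar Q x (f 0) • e 0 + polar Q x (e 0) • f 0 := by
      rw [hw]; abel
    rw [hx, map_add, map_add, map_smul, map_smul, hzw, he0, hf0]
    simp only [smul_add, smul_comm l]

end

end Cfsg.Agent.Lib.Helper6.OA
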