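import Mathlib
import Cfsg.Agent.Lib.Helper6.OA.Basic
import Cfsg.Agent.Lib.Helper6.OA.Scalar
import Cfsg.Agent.Lib.Helper18.OmegaCenterMat
import Cfsg.Agent.Lib.Helper49.SimpleOmega

set_option autoImplicit false

/-!
# Rigidity: the kernel of `cG : GO(Q) → Aut(PΩ(Q))` consists of the scalars
-/

namespace Cfsg.Agent.Lib.Helper6.OA

open Matrix QuadraticMap Module
open Cfsg.Agent.Lib.Helper49 Cfsg.Agent.Lib.Helper18 Cfsg.Agent.Lib.Helper18.OmegaCenter

section group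

variable {Γ : Type*} [Group Γ]

open scoped commutatorElement in
/-- an automorphism of `Γ` trivial on `Γ/Z(Γ)` (simple, `Γ` non-abelian) and on `Z(Γ)` is trivial -/
theorem aut_eq_one_of_trivial (hs : IsSimpleGroup (Γ ⧸ Subgroup.center Γ))
    (hna : ∃ a b : Γ, a * b ≠ b * a) (φ : MulAut Γ)
    (hφ : ∀ s, (QuotientGroup.mk (φ s) : Γ ⧸ Subgroup.center Γ) = QuotientGroup.mk s)
    (hz : ∀ z ∈ Subgroup.center Γ, φ z = z) (s : Γ) : φ s = s := by
  -- the fixed subgroup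
  let Fx : Subgroup Γ :=
    { carrier := {s | φ s = s}
      mul_mem' := fun {a b} ha hb => by
        show φ (a * b) = a * b
        rw [map_mul, ha, hb]
      one_mem' := map_one φ
      inv_mem' := fun {a} ha => by
        show φ a⁻¹ = a⁻¹
        rw [map_inv, ha] }
  have hdec : ∀ a : Γ, ∃ z ∈ Subgroup.center Γ, φ a = a * z := by
    intro a
    refine ⟨a⁻¹ * φ a, ?_, by group⟩
    exact QuotientGroup.eq.1 (hφ a).symm
  have hcomm : commutator Γ ≤ Fx := by
    rw [commutator_def, Subgroup.commutator_le]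
    intro a _ b _
    show φ ⁅a, b⁆ = ⁅a, b⁆
    obtain ⟨z1, hz1, e1⟩ := hdec a
    obtain ⟨z2, hz2, e2⟩ := hdec b
    rw [map_commutatorElement, e1, e2]
    rw [Subgroup.mem_center_iff] at hz1 hz2
    simp only [commutatorElement_def, _root_.mul_inv_rev]
    have c1 : ∀ g, z1⁻¹ * g = g * z1⁻¹ := fun g => by
      have := hz1 g
      calc z1⁻¹ * g = z1⁻¹ * (g * z1) * z1⁻¹ := by group
        _ = z1⁻¹ * (z1 * g) * z1⁻¹ := by rw [this]
        _ = g * z1⁻¹ := by group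
    have c2 : ∀ g, z2⁻¹ * g = g * z2⁻¹ := fun g => by
      have := hz2 g
      calc z2⁻¹ * g = z2⁻¹ * (g * z2) * z2⁻¹ := by group
        _ = z2⁻¹ * (z2 * g) * z2⁻¹ := by rw [this]
        _ = g * z2⁻¹ := by group
    calc a * z1 * (b * z2) * (z1⁻¹ * a⁻¹) * (z2⁻¹ * b⁻¹)
        = a * (z1 * b) * z2 * (z1⁻¹ * a⁻¹) * (z2⁻¹ * b⁻¹) := by group
      _ = a * (b * z1) * z2 * (a⁻¹ * z1⁻¹) * (b⁻¹ * z2⁻¹) := by rw [hz1 b, c1, c2]
      _ = a * b * z1 * (z2 * a⁻¹) * (z1⁻¹ * b⁻¹) * z2⁻¹ := by group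
      _ = a * b * z1 * (a⁻¹ * z2) * (b⁻¹ * z1⁻¹) * z2⁻¹ := by rw [hz2 a⁻¹, c1]
      _ = a * b * (z1 * a⁻¹) * (z2 * b⁻¹) * z1⁻¹ * z2⁻¹ := by group
      _ = a * b * (a⁻¹ * z1) * (b⁻¹ * z2) * z1⁻¹ * z2⁻¹ := by rw [hz1 a⁻¹, hz2 b⁻¹]
      _ = a * b * a⁻¹ * (z1 * b⁻¹) * (z2 * z1⁻¹) * z2⁻¹ := by group
      _ = a * b * a⁻¹ * (b⁻¹ * z1) * (z1⁻¹ * z2) * z2⁻¹ := by rw [hz1 b⁻¹, hz2 z1⁻¹]
      _ = a * b * a⁻¹ * b⁻¹ := by group
  have htop : commutator (Γ ⧸ Subgroup.center Γ) = ⊤ := by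
    rcases hs.eq_bot_or_eq_top_of_normal (commutator (Γ ⧸ Subgroup.center Γ)) inferInstance with
      h | h
    · exfalso
      obtain ⟨a, b, hab⟩ := hna
      have hc : ∀ x y : Γ ⧸ Subgroup.center Γ, x * y = y * x := by
        intro x y
        have : ⁅x, y⁆ ∈ commutator (Γ ⧸ Subgroup.center Γ) :=
          Subgroup.commutator_mem_commutator (Subgroup.mem_top x) (Subgroup.mem_top y)
        rw [h, Subgroup.mem_bot, commutatorElement_eq_one_iff_mul_comm] at this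
        exact this
      letI : CommGroup (Γ ⧸ Subgroup.center Γ) :=
        { (inferInstance : Group (Γ ⧸ Subgroup.center Γ)) with mul_comm := hc }
      haveI : IsSimpleGroup (Γ ⧸ Subgroup.center Γ) := hs
      haveI : IsCyclic (Γ ⧸ Subgroup.center Γ) := IsSimpleGroup.isCyclic
      exact hab (commutative_of_cyclic_center_quotient (QuotientGroup.mk' (Subgroup.center Γ))
        (by rw [QuotientGroup.ker_mk']) a b)
    · exact h
  have hmem : (QuotientGroup.mk s : Γ ⧸ Subgroup.center Γ) ∈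
      (commutator Γ).map (QuotientGroup.mk' (Subgroup.center Γ)) := by
    rw [commutator_def, Subgroup.map_commutator,
      Subgroup.map_top_of_surjective _ (QuotientGroup.mk'_surjective _), ← commutator_def, htop]
    exact Subgroup.mem_top _
  obtain ⟨c, hc, hcs⟩ := hmem
  have hz' : c⁻¹ * s ∈ Subgroup.center Γ := QuotientGroup.eq.1 hcs
  have : s = c * (c⁻¹ * s) := by group
  rw [this, map_mul, hz _ hz']
  congr 1
  exact hcomm hc

end group

section rigid

variable {ι : Type} [Fintype ι] [DecidableEq ι] {F : Type*} [Field F] [Fintype F]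
variable (Q : QuadraticForm F (ι → F))

/-- a similarity acting trivially on `PΩ(Q)` is a scalar matrix -/
theorem scalar_of_cG_eq_one (hQ : (polarBilin Q).Nondegenerate) {e f : Fin 3 → (ι → F)}
    (h : Frame3 Q e f) (hd : 7 ≤ Fintype.card ι) (g : ↥(GO ⇑Q)) (hg : cG ⇑Q g = 1) :
    ∃ l : F, (g.1 : Matrix ι ι F) = l • 1 := by
  have hd' : 7 ≤ finrank F (ι → F) := by rwa [Module.finrank_fintype_fun_eq_card]
  have hs := isSimpleGroup_POmega Q hQ hd
  have hna : ∃ a b : ↥(Cfsg.Omega F ⇑Q), a * b ≠ b * a := by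
    obtain ⟨a, ha, b, hb, hab⟩ := exists_noncommuting Q hQ hd'
    refine ⟨⟨(isoEquiv Q).symm a, (mem_Omega_iff Q _).2 (by simpa using ha)⟩,
      ⟨(isoEquiv Q).symm b, (mem_Omega_iff Q _).2 (by simpa using hb)⟩, ?_⟩
    intro h
    apply hab
    have h1 := congrArg (fun k : ↥(Cfsg.Omega F ⇑Q) => isoEquiv Q k.1) h
    simpa using h1
  have hfix : ∀ s : ↥(Cfsg.Omega F ⇑Q), cO ⇑Q g s = s := by
    apply aut_eq_one_of_trivial hs hna (cO ⇑Q g)
    · intro s
      rw [← cG_mk, hg]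
      rfl
    · intro z hz
      apply Subtype.ext
      apply Subtype.ext
      apply Units.ext
      rw [cO_coe]
      have hz1 := center_mat Q hQ h z hz
      unfold omat at hz1
      rw [Units.val_mul, Units.val_mul]
      rcases hz1 with hz1 | hz1
      · rw [hz1, Matrix.mul_one, ← Units.val_mul, mul_inv_cancel, Units.val_one]
      · rw [hz1, Matrix.mul_neg, Matrix.mul_one, Matrix.neg_mul, ← Units.val_mul, mul_inv_cancel,
          Units.val_one]
  have hcomm : ∀ s : ↥(Cfsg.Omega F ⇑Q),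
      (g.1 : Matrix ι ι F) * (s.1.1 : Matrix ι ι F) = (s.1.1 : Matrix ι ι F) * (g.1 : Matrix ι ι F) := by
    intro s
    have h1 := congrArg (fun t : ↥(Cfsg.Omega F ⇑Q) => (t.1.1 : GL ι F)) (hfix s)
    simp only [cO_coe] at h1
    have h2 : g.1 * s.1.1 = s.1.1 * g.1 := by
      calc g.1 * s.1.1 = (g.1 * s.1.1 * g.1⁻¹) * g.1 := by group
        _ = _ := by rw [h1]
    have h3 := congrArg (fun t : GL ι F => (t : Matrix ι ι F)) h2
    simpa using h3
  obtain ⟨c, hc⟩ := g.2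
  obtain ⟨l, hl⟩ := scalar_of_centralizes hQ h (Matrix.mulVecLin (g.1 : Matrix ι ι F))
    (fun u hu => by
      rw [Matrix.mulVecLin_apply, hc, hu, mul_zero])
    (fun k hk x => by
      have hk' : (isoEquiv Q).symm k ∈ Cfsg.Omega F ⇑Q := (mem_Omega_iff Q _).2 (by simpa using hk)
      have h1 := hcomm ⟨_, hk'⟩
      rw [Matrix.mulVecLin_apply, Matrix.mulVecLin_apply, ← isoEquiv_symm_mulVec Q k,
        ← isoEquiv_symm_mulVec Q k, Matrix.mulVec_mulVec, Matrix.mulVec_mulVec]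
      rw [h1])
  refine ⟨l, ?_⟩
  rw [Matrix.ext_iff_mulVec]
  intro x
  have := hl x
  rw [Matrix.mulVecLin_apply] at this
  rw [this, Matrix.smul_mulVec, Matrix.one_mulVec]

omit [Fintype F] in
theorem cG_eq_one_of_scalar (Q : (ι → F) → F) (g : ↥(GO Q)) (l : F)
    (hg : (g.1 : Matrix ι ι F) = l • 1) : cG Q g = 1 := by
  ext x
  induction x using QuotientGroup.induction_on with
  | H s =>
    rw [cG_mk]
    show _ = QuotientGroup.mk s
    congr 1
    apply Subtype.ext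
    apply Subtype.ext
    rw [cO_coe]
    have : g.1 * s.1.1 = s.1.1 * g.1 := by
      apply Units.ext
      rw [Units.val_mul, Units.val_mul, hg]
      simp
    rw [this]
    group

/-- two similarities induce the same automorphism iff they are proportional -/
theorem cG_eq_iff (hQ : (polarBilin Q).Nondegenerate) {e f : Fin 3 → (ι → F)}
    (h : Frame3 Q e f) (hd : 7 ≤ Fintype.card ι) (a b : ↥(GO ⇑Q)) :
    cG ⇑Q a = cG ⇑Q b ↔ ∃ l : F, (a.1 : Matrix ι ι F) = l • (b.1 : Matrix ι ι F) := by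
  constructor
  · intro hab
    have h1 : cG ⇑Q (a * b⁻¹) = 1 := by rw [map_mul, map_inv, hab, mul_inv_cancel]
    obtain ⟨l, hl⟩ := scalar_of_cG_eq_one Q hQ h hd _ h1
    refine ⟨l, ?_⟩
    have h2 : (a.1 : Matrix ι ι F) = ((a * b⁻¹ : ↥(GO ⇑Q)).1 : Matrix ι ι F) * (b.1 : Matrix ι ι F) := by
      rw [← Units.val_mul]
      congr 1
      simp
    rw [h2, hl, Matrix.smul_mul, Matrix.one_mul]
  · rintro ⟨l, hl⟩
    have h1 : cG ⇑Q (a * b⁻¹) = 1 := by
      apply cG_eq_one_of_scalar ⇑Q _ l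
      have : ((a * b⁻¹ : ↥(GO ⇑Q)).1 : Matrix ι ι F) =
          (a.1 : Matrix ι ι F) * ((b.1⁻¹ : GL ι F) : Matrix ι ι F) := by
        rw [← Units.val_mul]
        rfl
      rw [this, hl, Matrix.smul_mul, ← Units.val_mul, mul_inv_cancel, Units.val_one]
    rw [map_mul, map_inv, mul_inv_eq_one] at h1
    exact h1

end rigid

end Cfsg.Agent.Lib.Helper6.OA
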