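import Mathlib
import Cfsg.Agent.Lib.Helper59.TwoGroupRecog

set_option autoImplicit false

/-!
# Group-theoretic transfer lemmas for quotients of images
-/

namespace Cfsg.Agent.Lib.Helper6.OA

theorem exists_hom_of_map {E X Y : Type*} [Group E] [Group X] [Group Y] (c : E →* X)
    (A B : Subgroup E) (ψ : ↥A →* Y) (hψ : Function.Surjective ψ)
    (hker : ∀ a : ↥A, ψ a = 1 ↔ ∃ b ∈ B, c a.1 = c b) :
    ∃ φ : ↥(A.map c) →* Y, Function.Surjective φ ∧ φ.ker = (B.map c).subgroupOf (A.map c) := by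
  have hsurj : Function.Surjective (c.subgroupMap A) := c.subgroupMap_surjective A
  have hk : (c.subgroupMap A).ker ≤ ψ.ker := by
    intro a ha
    rw [MonoidHom.mem_ker] at ha ⊢
    rw [hker]
    refine ⟨1, one_mem _, ?_⟩
    have := congrArg Subtype.val ha
    simpa using this
  let φ : ↥(A.map c) →* Y := (c.subgroupMap A).liftOfSurjective hsurj ⟨ψ, hk⟩
  have hφ : ∀ a : ↥A, φ (c.subgroupMap A a) = ψ a := fun a =>
    MonoidHom.liftOfRightInverse_comp_apply _ _ _ ⟨ψ, hk⟩ a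
  refine ⟨φ, ?_, ?_⟩
  · intro y
    obtain ⟨a, rfl⟩ := hψ y
    exact ⟨_, hφ a⟩
  · ext x
    obtain ⟨a, rfl⟩ := hsurj x
    rw [MonoidHom.mem_ker, hφ, hker, Subgroup.mem_subgroupOf]
    constructor
    · rintro ⟨b, hb, e⟩
      exact ⟨b, hb, e.symm⟩
    · rintro ⟨b, hb, e⟩
      exact ⟨b, hb, e.symm⟩

theorem relIndex_of_hom {X Y : Type*} [Group X] [Group Y] (H K : Subgroup X) (φ : ↥H →* Y)
    (hφ : Function.Surjective φ) (hk : φ.ker = K.subgroupOf H) : K.relIndex H = Nat.card Y := by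
  unfold Subgroup.relIndex
  rw [← hk, Subgroup.index_ker, MonoidHom.range_eq_top.2 hφ]
  exact Nat.card_congr Subgroup.topEquiv.toEquiv

theorem klein_of (G : Type*) [Group G] (h4 : Nat.card G = 4) (h2 : ∀ x : G, x * x = 1) :
    Nonempty (G ≃* Multiplicative (ZMod 2 × ZMod 2)) := by
  have : IsKleinFour G :=
    { card_four := h4
      exponent_two := by
        have h1 : Monoid.exponent G ∣ 2 :=
          Monoid.exponent_dvd_of_forall_pow_eq_one (fun g => by rw [pow_two, h2])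
        rcases (Nat.dvd_prime Nat.prime_two).1 h1 with h | h
        · exfalso
          rw [Monoid.exp_eq_one_iff] at h
          have := Nat.card_eq_one_iff_unique.2 ⟨h, ⟨1⟩⟩
          omega
        · exact h }
  exact IsKleinFour.nonempty_mulEquiv

theorem units_prod_klein : Nonempty (ℤˣ × ℤˣ ≃* Multiplicative (ZMod 2 × ZMod 2)) := by
  apply klein_of
  · rw [Nat.card_prod]; simp
  · rintro ⟨a, b⟩
    simp

theorem units_c2 : Nonempty (ℤˣ ≃* Multiplicative (ZMod 2)) := by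
  haveI : Fact (Nat.Prime 2) := ⟨Nat.prime_two⟩
  exact ⟨mulEquivOfPrimeCardEq (p := 2) (by simp) (by simp)⟩

/-- post-composition with an isomorphism -/
theorem exists_hom_congr {H Y Y' : Type*} [Group H] [Group Y] [Group Y'] (e : Nonempty (Y ≃* Y'))
    (K : Subgroup H) (h : ∃ φ : H →* Y, Function.Surjective φ ∧ φ.ker = K) :
    ∃ φ : H →* Y', Function.Surjective φ ∧ φ.ker = K := by
  obtain ⟨e⟩ := e
  obtain ⟨φ, h1, h2⟩ := h
  refine ⟨e.toMonoidHom.comp φ, e.surjective.comp h1, ?_⟩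
  rw [← h2]
  ext x
  simp [MonoidHom.mem_ker]

/-- the quotient map as a witness -/
theorem exists_hom_of_quotient {H Y : Type*} [Group H] [Group Y] (K : Subgroup H) [K.Normal]
    (e : Nonempty (H ⧸ K ≃* Y)) : ∃ φ : H →* Y, Function.Surjective φ ∧ φ.ker = K :=
  exists_hom_congr e K ⟨QuotientGroup.mk' K, QuotientGroup.mk'_surjective K, QuotientGroup.ker_mk' K⟩

section recog

variable {X : Type*} [Group X] (H K : Subgroup X) [K.Normal]

theorem card_quot_eq : Nat.card (↥H ⧸ K.subgroupOf H) = K.relIndex H := rfl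

theorem mk_eq_one_iff' (x : X) (hx : x ∈ H) :
    (QuotientGroup.mk (⟨x, hx⟩ : ↥H) : ↥H ⧸ K.subgroupOf H) = 1 ↔ x ∈ K := by
  rw [QuotientGroup.eq_one_iff, Subgroup.mem_subgroupOf]

/-- dihedral quotient of order 8 -/
theorem d8_of (hidx : K.relIndex H = 8) (a b : X) (ha : a ∈ H) (hb : b ∈ H)
    (ha2 : a * a ∉ K) (ha4 : a * a * (a * a) ∈ K) (hb2 : b * b ∈ K) (hba : b * a * (b * a) ∈ K) :
    ∃ φ : ↥H →* DihedralGroup 4, Function.Surjective φ ∧ φ.ker = K.subgroupOf H := by
  apply exists_hom_of_quotient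
  have hcard : Nat.card (↥H ⧸ K.subgroupOf H) = 2 * 4 := by rw [card_quot_eq, hidx]
  have : Finite (↥H ⧸ K.subgroupOf H) := Nat.finite_of_card_ne_zero (by rw [hcard]; norm_num)
  set A : ↥H ⧸ K.subgroupOf H := QuotientGroup.mk (⟨a, ha⟩ : ↥H) with hA
  set B : ↥H ⧸ K.subgroupOf H := QuotientGroup.mk (⟨b, hb⟩ : ↥H) with hB
  have hA2 : A * A ≠ 1 := by
    intro h
    apply ha2
    rw [← mk_eq_one_iff' H K (a * a) (mul_mem ha ha)]
    exact h
  have hA4 : A * A * (A * A) = 1 :=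
    (mk_eq_one_iff' H K (a * a * (a * a)) (mul_mem (mul_mem ha ha) (mul_mem ha ha))).2 ha4
  have hB2 : B * B = 1 := (mk_eq_one_iff' H K (b * b) (mul_mem hb hb)).2 hb2
  have hBA : B * A * (B * A) = 1 :=
    (mk_eq_one_iff' H K (b * a * (b * a)) (mul_mem (mul_mem hb ha) (mul_mem hb ha))).2 hba
  have hBinv : B⁻¹ = B := inv_eq_of_mul_eq_one_left hB2
  have hconj : B * A * B⁻¹ = A⁻¹ := by
    rw [hBinv, eq_inv_iff_mul_eq_one]
    rw [← hBA]; group
  apply Cfsg.Agent.Lib.Helper59.dihedral_recog 4 (by norm_num) A B _ hB2 hconj _ hcard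
  · have := orderOf_eq_prime_pow (p := 2) (n := 1) (x := A) (by
      rw [pow_one, pow_two]; exact hA2) (by
      have : (2 : ℕ) ^ (1 + 1) = 4 := by norm_num
      rw [this, ← hA4]; simp only [pow_succ, pow_zero, one_mul, mul_assoc])
    simpa using this
  · intro hmem
    obtain ⟨j, hj⟩ := hmem
    have hcm : B * A = A * B := by
      rw [← hj]
      group
    apply hA2
    have h1 : B * A * B⁻¹ = A := by rw [hcm]; group
    rw [hconj] at h1
    calc A * A = A * A⁻¹ := by rw [h1]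
      _ = 1 := mul_inv_cancel A

/-- cyclic quotient of order 4 -/
theorem c4_of (hidx : K.relIndex H = 4) (a : X) (ha : a ∈ H) (ha2 : a * a ∉ K) :
    ∃ φ : ↥H →* Multiplicative (ZMod 4), Function.Surjective φ ∧ φ.ker = K.subgroupOf H := by
  apply exists_hom_of_quotient
  have hcard : Nat.card (↥H ⧸ K.subgroupOf H) = 4 := by rw [card_quot_eq, hidx]
  have : Finite (↥H ⧸ K.subgroupOf H) := Nat.finite_of_card_ne_zero (by rw [hcard]; norm_num)
  set A : ↥H ⧸ K.subgroupOf H := QuotientGroup.mk (⟨a, ha⟩ : ↥H) with hA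
  have hA2 : A * A ≠ 1 := by
    intro h
    apply ha2
    rw [← mk_eq_one_iff' H K (a * a) (mul_mem ha ha)]
    exact h
  have hord : orderOf A = 4 := by
    have := orderOf_eq_prime_pow (p := 2) (n := 1) (x := A) (by
      rw [pow_one, pow_two]; exact hA2) (by
      have h4 : (2 : ℕ) ^ (1 + 1) = 4 := by norm_num
      rw [h4, ← hcard]; exact pow_card_eq_one')
    simpa using this
  have : IsCyclic (↥H ⧸ K.subgroupOf H) := isCyclic_of_orderOf_eq_card A (by rw [hord, hcard])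
  exact ⟨mulEquivOfCyclicCardEq (by rw [hcard]; simp)⟩

/-- Klein four quotient -/
theorem v4_of (hidx : K.relIndex H = 4) (hsq : ∀ x ∈ H, x * x ∈ K) :
    ∃ φ : ↥H →* Multiplicative (ZMod 2 × ZMod 2),
      Function.Surjective φ ∧ φ.ker = K.subgroupOf H := by
  apply exists_hom_of_quotient
  apply klein_of
  · rw [card_quot_eq, hidx]
  · intro x
    induction x using QuotientGroup.induction_on with
    | H x => exact (mk_eq_one_iff' H K (x.1 * x.1) (mul_mem x.2 x.2)).2 (hsq x.1 x.2)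

/-- quotient of order 2 -/
theorem c2_of (hidx : K.relIndex H = 2) :
    ∃ φ : ↥H →* Multiplicative (ZMod 2), Function.Surjective φ ∧ φ.ker = K.subgroupOf H := by
  apply exists_hom_of_quotient
  have : Fact (Nat.Prime 2) := ⟨Nat.prime_two⟩
  exact ⟨mulEquivOfPrimeCardEq (p := 2) (by rw [card_quot_eq, hidx]) (by simp)⟩

end recog

end Cfsg.Agent.Lib.Helper6.OA
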