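import Mathlib
import Cfsg.Agent.Lib.Helper6.OA.Rigid
import Cfsg.Agent.Lib.Helper6.OA.Transfer
import Cfsg.Agent.Lib.Helper18.OrthOmega
import Cfsg.Agent.Lib.Helper18.OrthCD

set_option autoImplicit false
set_option linter.unusedSectionVars false

/-!
# Structure of `GO(Q)` modulo `Ω(Q)·scalars`, `q` odd, even dimension
-/

namespace Cfsg.Agent.Lib.Helper6.OA

open Matrix QuadraticMap Module
open Cfsg.Agent.Lib.Helper49 Cfsg.Agent.Lib.Helper18 Cfsg.Agent.Lib.Helper18.OmegaCenter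

variable {ι : Type} [Fintype ι] [DecidableEq ι] {F : Type*} [Field F]
variable (Q : QuadraticForm F (ι → F))

/-- the multiplier of a similarity -/
noncomputable def mu0 (g : ↥(GO ⇑Q)) : Fˣ := Classical.choose g.2

theorem mu0_spec (g : ↥(GO ⇑Q)) (v : ι → F) :
    Q ((g.1 : Matrix ι ι F) *ᵥ v) = (mu0 Q g : F) * Q v := Classical.choose_spec g.2 v

theorem mu0_unique (hv : ∃ v, Q v ≠ 0) (g : ↥(GO ⇑Q)) (c : F)
    (hc : ∀ v, Q ((g.1 : Matrix ι ι F) *ᵥ v) = c * Q v) : (mu0 Q g : F) = c := by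
  obtain ⟨v, hv⟩ := hv
  have := mu0_spec Q g v
  rw [hc] at this
  exact (mul_right_cancel₀ hv this).symm

/-- the multiplier homomorphism -/
noncomputable def mu (hv : ∃ v, Q v ≠ 0) : ↥(GO ⇑Q) →* Fˣ where
  toFun := mu0 Q
  map_one' := by
    apply Units.ext
    apply mu0_unique Q hv
    intro v
    simp
  map_mul' a b := by
    apply Units.ext
    apply mu0_unique Q hv
    intro v
    have : ((a * b : ↥(GO ⇑Q)).1 : Matrix ι ι F) *ᵥ v =
        (a.1 : Matrix ι ι F) *ᵥ ((b.1 : Matrix ι ι F) *ᵥ v) := by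
      rw [Matrix.mulVec_mulVec]; rfl
    rw [this, mu0_spec, mu0_spec, Units.val_mul, mul_assoc]

theorem mu_spec (hv : ∃ v, Q v ≠ 0) (g : ↥(GO ⇑Q)) (v : ι → F) :
    Q ((g.1 : Matrix ι ι F) *ᵥ v) = (mu Q hv g : F) * Q v := mu0_spec Q g v

theorem mu_unique (hv : ∃ v, Q v ≠ 0) (g : ↥(GO ⇑Q)) (c : F)
    (hc : ∀ v, Q ((g.1 : Matrix ι ι F) *ᵥ v) = c * Q v) : (mu Q hv g : F) = c :=
  mu0_unique Q hv g c hc

/-- isometries as similarities -/
def iO : ↥(Cfsg.isometryGroup F ⇑Q) →* ↥(GO ⇑Q) := Subgroup.inclusion (O_le_GO ⇑Q)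

@[simp] theorem iO_coe (h : ↥(Cfsg.isometryGroup F ⇑Q)) : ((iO Q h).1 : Matrix ι ι F) = mat h := rfl

theorem mu_iO (hv : ∃ v, Q v ≠ 0) (h : ↥(Cfsg.isometryGroup F ⇑Q)) : mu Q hv (iO Q h) = 1 := by
  apply Units.ext
  apply mu_unique
  intro v
  rw [iO_coe, Units.val_one, one_mul]
  exact Q_act h v

/-- a similarity whose multiplier is `l²` is `l` times an isometry -/
theorem exists_iso_of_mu_sq (hv : ∃ v, Q v ≠ 0) (g : ↥(GO ⇑Q)) (l : F)
    (hl : (mu Q hv g : F) = l ^ 2) :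
    ∃ h : ↥(Cfsg.isometryGroup F ⇑Q), (g.1 : Matrix ι ι F) = l • mat h := by
  have hl0 : l ≠ 0 := by
    rintro rfl
    have := (mu Q hv g).ne_zero
    rw [hl] at this
    simp at this
  refine ⟨mkIso (l⁻¹ • (g.1 : Matrix ι ι F)) (l • ((g.1⁻¹ : GL ι F) : Matrix ι ι F)) ?_ ?_ ?_, ?_⟩
  · rw [Matrix.smul_mul, Matrix.mul_smul, smul_smul, inv_mul_cancel₀ hl0, one_smul,
      ← Units.val_mul, mul_inv_cancel, Units.val_one]
  · rw [Matrix.smul_mul, Matrix.mul_smul, smul_smul, mul_inv_cancel₀ hl0, one_smul,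
      ← Units.val_mul, inv_mul_cancel, Units.val_one]
  · intro x
    rw [Matrix.smul_mulVec, QuadraticMap.map_smul, mu_spec Q hv, hl, smul_eq_mul]
    field_simp
  · rw [mat_mkIso, smul_smul, mul_inv_cancel₀ hl0, one_smul]

/-- scalar similarities -/
noncomputable def sc : Fˣ →* ↥(GO ⇑Q) :=
  (GeneralLinearGroup.scalar ι).codRestrict (GO ⇑Q) (fun l => ⟨l * l, fun v => by
    have : ((GeneralLinearGroup.scalar ι l : GL ι F) : Matrix ι ι F) = (l : F) • 1 := by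
      ext i j
      simp [Matrix.one_apply, Matrix.scalar_apply, Matrix.diagonal_apply]
    rw [this, Matrix.smul_mulVec, Matrix.one_mulVec, QuadraticMap.map_smul, smul_eq_mul,
      Units.val_mul]⟩)

theorem sc_coe (l : Fˣ) : ((sc Q l).1 : Matrix ι ι F) = (l : F) • 1 := by
  show ((GeneralLinearGroup.scalar ι l : GL ι F) : Matrix ι ι F) = (l : F) • 1
  ext i j
  simp [Matrix.one_apply, Matrix.scalar_apply, Matrix.diagonal_apply]

theorem mu_sc (hv : ∃ v, Q v ≠ 0) (l : Fˣ) : mu Q hv (sc Q l) = l * l := by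
  apply Units.ext
  apply mu_unique
  intro v
  rw [sc_coe, Matrix.smul_mulVec, Matrix.one_mulVec, QuadraticMap.map_smul, smul_eq_mul,
    Units.val_mul]

theorem cG_sc (l : Fˣ) : cG ⇑Q (sc Q l) = 1 := cG_eq_one_of_scalar ⇑Q _ l (sc_coe Q l)

theorem eq_of_coe_eq {a b : ↥(GO ⇑Q)} (h : (a.1 : Matrix ι ι F) = (b.1 : Matrix ι ι F)) : a = b :=
  Subtype.ext (Units.ext h)

theorem coe_mul' (a b : ↥(GO ⇑Q)) :
    ((a * b : ↥(GO ⇑Q)).1 : Matrix ι ι F) = (a.1 : Matrix ι ι F) * (b.1 : Matrix ι ι F) := rfl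

/-- group form of `exists_iso_of_mu_sq` -/
theorem exists_sc_mul_iO (hv : ∃ v, Q v ≠ 0) (g : ↥(GO ⇑Q)) (l : Fˣ)
    (hl : mu Q hv g = l * l) : ∃ h : ↥(Cfsg.isometryGroup F ⇑Q), g = sc Q l * iO Q h := by
  obtain ⟨h, hh⟩ := exists_iso_of_mu_sq Q hv g l (by rw [hl, Units.val_mul, pow_two])
  refine ⟨h, eq_of_coe_eq Q ?_⟩
  rw [coe_mul', sc_coe, iO_coe, hh, Matrix.smul_mul, Matrix.one_mul]

/-- the determinant character on the isometry group -/
noncomputable def dh : ↥(Cfsg.isometryGroup F ⇑Q) →* Fˣ :=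
  GeneralLinearGroup.det.comp (Subgroup.subtype _)

theorem dh_coe (h : ↥(Cfsg.isometryGroup F ⇑Q)) : (dh Q h : F) = (mat h).det := rfl

/-- `det / multiplier ^ k` -/
noncomputable def eps' (hv : ∃ v, Q v ≠ 0) (k : ℕ) : ↥(GO ⇑Q) →* Fˣ where
  toFun g := GeneralLinearGroup.det g.1 * ((mu Q hv g)⁻¹) ^ k
  map_one' := by simp
  map_mul' a b := by
    simp only [Subgroup.coe_mul, map_mul, _root_.mul_inv_rev, mul_pow]
    rw [mul_comm ((mu Q hv b)⁻¹ ^ k)]
    exact mul_mul_mul_comm _ _ _ _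

theorem eps'_iO (hv : ∃ v, Q v ≠ 0) (k : ℕ) (h : ↥(Cfsg.isometryGroup F ⇑Q)) :
    eps' Q hv k (iO Q h) = dh Q h := by
  show GeneralLinearGroup.det (iO Q h).1 * ((mu Q hv (iO Q h))⁻¹) ^ k = _
  rw [mu_iO]
  simp
  rfl

theorem eps'_sc (hv : ∃ v, Q v ≠ 0) (k : ℕ) (hk : Fintype.card ι = 2 * k) (l : Fˣ) :
    eps' Q hv k (sc Q l) = 1 := by
  show GeneralLinearGroup.det (sc Q l).1 * ((mu Q hv (sc Q l))⁻¹) ^ k = _
  rw [mu_sc]
  apply Units.ext
  rw [Units.val_mul, GeneralLinearGroup.val_det_apply, sc_coe, Matrix.det_smul, Matrix.det_one, hk]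
  simp only [mul_one, Units.val_pow_eq_pow_val, Units.val_inv_eq_inv_val, Units.val_mul,
    Units.val_one]
  have := l.ne_zero
  rw [pow_mul, pow_two, inv_pow]
  exact mul_inv_cancel₀ (pow_ne_zero _ (mul_ne_zero this this))

theorem sc_comm (l : Fˣ) (g : ↥(GO ⇑Q)) : sc Q l * g = g * sc Q l := by
  apply eq_of_coe_eq
  rw [coe_mul', coe_mul', sc_coe]
  simp

section setup

variable [Fintype F]

/-- the standing hypotheses: `q` odd, dimension `2k ≥ 7`, Witt index at least 3, and a similarity `D`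
with non-square multiplier `ν` and `D² = ν`. -/
structure Setup (Q : QuadraticForm F (ι → F)) (k : ℕ) (ν : Fˣ) (D : ↥(GO ⇑Q)) : Prop where
  h2 : (2 : F) ≠ 0
  nd : (polarBilin Q).Nondegenerate
  fr : ∃ e f : Fin 3 → (ι → F), Frame3 Q e f
  hd : 7 ≤ Fintype.card ι
  dim : Fintype.card ι = 2 * k
  nsq : ¬ IsSquare (ν : F)
  Dmul : ∀ v, Q ((D.1 : Matrix ι ι F) *ᵥ v) = ν * Q v
  Dsq : D * D = sc Q ν

namespace Setup

variable {Q} {k : ℕ} {ν : Fˣ} {D : ↥(GO ⇑Q)} (S : Setup Q k ν D)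
include S

theorem hn : 2 ≤ Fintype.card ι := by have := S.hd; omega

theorem hv : ∃ v, Q v ≠ 0 := by
  obtain ⟨v, hv⟩ := exists_Q_eq Q S.h2 S.nd S.hn 1
  exact ⟨v, by rw [hv]; exact one_ne_zero⟩

theorem mu_D : mu Q S.hv D = ν := Units.ext (mu_unique Q S.hv D ν S.Dmul)

theorem cG_eq_iff' (a b : ↥(GO ⇑Q)) : cG ⇑Q a = cG ⇑Q b ↔ ∃ l : Fˣ, a = sc Q l * b := by
  obtain ⟨e, f, hf⟩ := S.fr
  rw [cG_eq_iff Q S.nd hf S.hd]
  constructor
  · rintro ⟨l, hl⟩
    have hl0 : l ≠ 0 := by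
      rintro rfl
      rw [zero_smul] at hl
      have h1 : (a.1 : Matrix ι ι F) * ((a.1⁻¹ : GL ι F) : Matrix ι ι F) = 1 := by
        rw [← Units.val_mul, mul_inv_cancel, Units.val_one]
      rw [hl, Matrix.zero_mul] at h1
      have : Nonempty ι := by
        rw [← Fintype.card_pos_iff]
        have := S.hd
        omega
      exact zero_ne_one h1
    refine ⟨Units.mk0 l hl0, eq_of_coe_eq Q ?_⟩
    rw [coe_mul', sc_coe, hl]
    simp
  · rintro ⟨l, rfl⟩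
    refine ⟨l, ?_⟩
    rw [coe_mul', sc_coe]
    simp

/-- every similarity is a scalar times an isometry, or a scalar times `D` times an isometry -/
theorem cases (g : ↥(GO ⇑Q)) : ∃ (l : Fˣ) (h : ↥(Cfsg.isometryGroup F ⇑Q)),
    g = sc Q l * iO Q h ∨ g = sc Q l * D * iO Q h := by
  rcases sq_or_nonsq S.h2 S.nsq (mu Q S.hv g).ne_zero with ⟨t, ht⟩ | ⟨t, ht⟩
  · have ht0 : t ≠ 0 := by
      rintro rfl
      exact (mu Q S.hv g).ne_zero (by rw [ht]; simp)
    obtain ⟨h, hh⟩ := exists_sc_mul_iO Q S.hv g (Units.mk0 t ht0) (by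
      apply Units.ext
      rw [ht, Units.val_mul, Units.val_mk0, pow_two])
    exact ⟨_, h, Or.inl hh⟩
  · have ht0 : t ≠ 0 := by
      rintro rfl
      exact (mu Q S.hv g).ne_zero (by rw [ht]; simp)
    obtain ⟨h, hh⟩ := exists_sc_mul_iO Q S.hv (D⁻¹ * g) (Units.mk0 t ht0) (by
      rw [map_mul, map_inv, S.mu_D]
      apply Units.ext
      rw [Units.val_mul, ht, Units.val_mul, Units.val_mk0, Units.val_inv_eq_inv_val]
      have := ν.ne_zero
      field_simp)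
    refine ⟨Units.mk0 t ht0, h, Or.inr ?_⟩
    rw [sc_comm, mul_assoc, ← hh]
    group

theorem neg_one_ne_one : (-1 : Fˣ) ≠ 1 := by
  intro h
  apply S.h2
  have := congrArg Units.val h
  simp only [Units.val_neg, Units.val_one] at this
  linear_combination -this

/-- determinant against the two sign characters -/
theorem det_sgn (h : ↥(Cfsg.isometryGroup F ⇑Q)) :
    (dh Q h = 1 ∧ sgn ⇑Q 1 h * sgn ⇑Q ν h = 1) ∨ (dh Q h = -1 ∧ sgn ⇑Q 1 h * sgn ⇑Q ν h = -1) := by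
  have hm : h ∈ Subgroup.closure (reflSet Q) := by
    rw [closure_reflSet_eq_top Q S.h2 S.nd]
    exact Subgroup.mem_top _
  induction hm using Subgroup.closure_induction with
  | mem x hx =>
    obtain ⟨v, hv, rfl⟩ := hx
    right
    refine ⟨Units.ext ?_, ?_⟩
    · rw [dh_coe, mat_refl, det_reflectionMatrix Q hv]
      simp
    · rcases sq_or_nonsq S.h2 S.nsq hv with ⟨t, ht⟩ | ⟨t, ht⟩
      · have ht0 : t ≠ 0 := by
          rintro rfl
          exact hv (by rw [ht]; simp)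
        obtain ⟨a, b⟩ := sgn_pair_refl_sq Q S.h2 S.nsq ht0 ht
        rw [a, b]; rfl
      · have ht0 : t ≠ 0 := by
          rintro rfl
          exact hv (by rw [ht]; simp)
        obtain ⟨a, b⟩ := sgn_pair_refl_nonsq Q S.h2 S.nsq ht0 ht
        rw [a, b]; rfl
  | one => left; simp
  | mul x y _ _ hx hy =>
    rcases hx with ⟨a1, a2⟩ | ⟨a1, a2⟩ <;> rcases hy with ⟨b1, b2⟩ | ⟨b1, b2⟩
    · left
      refine ⟨by rw [map_mul, a1, b1, one_mul], ?_⟩
      rw [map_mul, map_mul, mul_mul_mul_comm, a2, b2, one_mul]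
    · right
      refine ⟨by rw [map_mul, a1, b1, one_mul], ?_⟩
      rw [map_mul, map_mul, mul_mul_mul_comm, a2, b2, one_mul]
    · right
      refine ⟨by rw [map_mul, a1, b1, mul_one], ?_⟩
      rw [map_mul, map_mul, mul_mul_mul_comm, a2, b2, mul_one]
    · left
      refine ⟨by rw [map_mul, a1, b1]; simp, ?_⟩
      rw [map_mul, map_mul, mul_mul_mul_comm, a2, b2]; simp
  | inv x _ hx =>
    rcases hx with ⟨a1, a2⟩ | ⟨a1, a2⟩
    · left
      refine ⟨by rw [map_inv, a1, inv_one], ?_⟩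
      rw [map_inv, map_inv, ← mul_inv, a2, inv_one]
    · right
      refine ⟨by rw [map_inv, a1]; simp, ?_⟩
      rw [map_inv, map_inv, ← mul_inv, a2]; simp

theorem mem_Omega_iff' (h : ↥(Cfsg.isometryGroup F ⇑Q)) :
    h ∈ Cfsg.Omega F ⇑Q ↔ sgn ⇑Q 1 h = 1 ∧ sgn ⇑Q ν h = 1 := by
  show h ∈ commutator _ ↔ _
  rw [commutator_eq_ker Q S.h2 S.nd S.hn S.nsq, MonoidHom.mem_ker, MonoidHom.prod_apply,
    Prod.mk_eq_one]

theorem eps'_D : eps' Q S.hv k D = 1 ∨ eps' Q S.hv k D = -1 := by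
  have h1 : eps' Q S.hv k D * eps' Q S.hv k D = 1 := by
    rw [← map_mul, S.Dsq, eps'_sc Q S.hv k S.dim]
  have h2 := congrArg Units.val h1
  rw [Units.val_mul, Units.val_one, mul_self_eq_one_iff] at h2
  rcases h2 with h2 | h2
  · left; exact Units.ext h2
  · right; exact Units.ext (by rw [h2]; simp)

theorem eps'_cases (g : ↥(GO ⇑Q)) : eps' Q S.hv k g = 1 ∨ eps' Q S.hv k g = -1 := by
  obtain ⟨l, h, rfl | rfl⟩ := S.cases g
  · rw [map_mul, eps'_sc Q S.hv k S.dim, one_mul, eps'_iO]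
    rcases S.det_sgn h with ⟨a, -⟩ | ⟨a, -⟩
    · exact Or.inl a
    · exact Or.inr a
  · rw [map_mul, map_mul, eps'_sc Q S.hv k S.dim, one_mul, eps'_iO]
    rcases S.det_sgn h with ⟨a, -⟩ | ⟨a, -⟩ <;> rcases S.eps'_D with b | b <;> rw [a, b] <;> simp

end Setup

end setup

end Cfsg.Agent.Lib.Helper6.OA
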