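import Mathlib
import Cfsg.Agent.Lib.Helper6.OA.Struct
import Cfsg.Agent.Lib.Helper49.PlusParity

set_option autoImplicit false
set_option linter.unusedSectionVars false

/-!
# The two classes of maximal totally singular subspaces, and the similarities preserving them
-/

namespace Cfsg.Agent.Lib.Helper6.OA

open Matrix QuadraticMap Module
open Cfsg.Agent.Lib.Helper49

section abstract

variable {F V : Type*} [Field F] [AddCommGroup V] [Module F V] [FiniteDimensional F V]
  {Q : QuadraticForm F V}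

/-- triangle parity for three Lagrangians -/
theorem even_triangle (hQ : (polarBilin Q).Nondegenerate) {U W X : Submodule F V}
    (hU : IsLagr Q U) (hW : IsLagr Q W) (hX : IsLagr Q X) :
    Even (finrank F ↥(U ⊓ W) + finrank F ↥(W ⊓ X) + finrank F ↥(U ⊓ X) + finrank F U) := by
  have ha : finrank F ↥(U ⊓ W) ≤ finrank F U := Submodule.finrank_mono inf_le_left
  obtain ⟨vs, hvs, hlen, hmap⟩ :=
    hU.exists_reflProd_map (finrank F U - finrank F ↥(U ⊓ W)) W hW (by omega)
  have := hX.even_finrank_inf_map_reflProd hQ hW vs (by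
    intro v hv
    rw [hvs v hv]; simp)
  rw [hmap, hlen, inf_comm X U, inf_comm X W] at this
  rw [Nat.even_iff] at this ⊢
  omega

/-- a linear similarity -/
def IsSim (Q : QuadraticForm F V) (g : V ≃ₗ[F] V) : Prop := ∃ c : F, c ≠ 0 ∧ ∀ v, Q (g v) = c * Q v

theorem IsSim.mul {g h : V ≃ₗ[F] V} (hg : IsSim Q g) (hh : IsSim Q h) : IsSim Q (h.trans g) := by
  obtain ⟨c, hc, hg⟩ := hg
  obtain ⟨d, hd, hh⟩ := hh
  refine ⟨c * d, mul_ne_zero hc hd, fun v => ?_⟩
  rw [LinearEquiv.trans_apply, hg, hh, mul_assoc]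

theorem isLagr_map_sim (hQ : (polarBilin Q).Nondegenerate) {U : Submodule F V} (hU : IsLagr Q U)
    {g : V ≃ₗ[F] V} (hg : IsSim Q g) : IsLagr Q (U.map (g : V →ₗ[F] V)) := by
  obtain ⟨c, -, hg⟩ := hg
  apply isLagr_of_finrank hQ
  · rintro _ ⟨u, hu, rfl⟩
    rw [LinearEquiv.coe_coe, hg, hU.1 u hu, mul_zero]
  · rw [LinearEquiv.finrank_map_eq]
    exact hU.finrank_eq hQ

theorem finrank_map_inf_map' (g : V ≃ₗ[F] V) (U W : Submodule F V) :
    finrank F ↥(U.map (g : V →ₗ[F] V) ⊓ W.map (g : V →ₗ[F] V)) = finrank F ↥(U ⊓ W) := by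
  rw [← Submodule.map_inf _ g.injective]
  exact LinearEquiv.finrank_map_eq g _

/-- the parity of `dim (U ∩ gU)` does not depend on the Lagrangian `U` -/
theorem even_par_indep (hQ : (polarBilin Q).Nondegenerate) {U W : Submodule F V}
    (hU : IsLagr Q U) (hW : IsLagr Q W) {g : V ≃ₗ[F] V} (hg : IsSim Q g) :
    Even (finrank F ↥(U ⊓ U.map (g : V →ₗ[F] V)) + finrank F ↥(W ⊓ W.map (g : V →ₗ[F] V))) := by
  have h1 := even_triangle hQ hU hW (isLagr_map_sim hQ hU hg)
  have h2 := even_triangle hQ hW (isLagr_map_sim hQ hW hg) (isLagr_map_sim hQ hU hg)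
  rw [finrank_map_inf_map', inf_comm W U] at h2
  have h3 := hU.finrank_eq hQ
  have h4 := hW.finrank_eq hQ
  rw [Nat.even_iff] at h1 h2 ⊢
  omega

/-- the parity of `dim (U ∩ gU)` is additive -/
theorem even_par_mul (hQ : (polarBilin Q).Nondegenerate) {U : Submodule F V}
    (hU : IsLagr Q U) {g h : V ≃ₗ[F] V} (hg : IsSim Q g) (hh : IsSim Q h) :
    Even (finrank F ↥(U ⊓ U.map ((h.trans g : V ≃ₗ[F] V) : V →ₗ[F] V)) +
      finrank F ↥(U ⊓ U.map (g : V →ₗ[F] V)) + finrank F ↥(U ⊓ U.map (h : V →ₗ[F] V)) +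
      finrank F U) := by
  have h1 := even_triangle hQ hU (isLagr_map_sim hQ hU hg) (isLagr_map_sim hQ (isLagr_map_sim hQ hU hh) hg)
  rw [finrank_map_inf_map', ← Submodule.map_comp] at h1
  have e : ((g : V →ₗ[F] V) ∘ₗ (h : V →ₗ[F] V)) = ((h.trans g : V ≃ₗ[F] V) : V →ₗ[F] V) := rfl
  rw [e] at h1
  rw [Nat.even_iff] at h1 ⊢
  omega

/-- a Lagrangian is maximal totally singular -/
theorem isLagr_eq_of_singular {U W : Submodule F V} (hU : IsLagr Q U) (hW : ∀ w ∈ W, Q w = 0)
    (h : U ≤ W) : W = U := by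
  apply le_antisymm _ h
  intro w hw
  apply hU.mem_of_forall
  intro u hu
  exact polar_eq_zero_of_singular hW (h hu) hw

/-- if there is a Lagrangian, then every maximal totally singular subspace is Lagrangian -/
theorem isLagr_of_maximal (hQ : (polarBilin Q).Nondegenerate) {L U : Submodule F V}
    (hL : IsLagr Q L) (hU : ∀ u ∈ U, Q u = 0)
    (hmax : ∀ W : Submodule F V, (∀ w ∈ W, Q w = 0) → U ≤ W → W = U) : IsLagr Q U := by
  set Up := LinearMap.BilinForm.orthogonal (polarBilin Q) U with hUp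
  have h1 : (L ⊓ Up) ⊔ U = U := by
    apply hmax _ _ le_sup_right
    intro w hw
    obtain ⟨l, hl, u, hu, rfl⟩ := Submodule.mem_sup.1 hw
    have h3 : polar Q l u = 0 := by
      rw [polar_comm]
      exact hl.2 u hu
    have : Q (l + u) = Q l + Q u + polar Q l u := by simp only [polar]; ring
    rw [this, hL.1 l hl.1, hU u hu, h3]
    simp
  have h2 : L ⊓ Up ≤ L ⊓ U := le_inf inf_le_left (by rw [← h1]; exact le_sup_left)
  have h3 : L ⊓ Up = LinearMap.BilinForm.orthogonal (polarBilin Q) (L ⊔ U) := by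
    rw [orthogonal_sup, hL.2]
  have h4 := LinearMap.BilinForm.finrank_orthogonal hQ (L ⊔ U)
  have h5 := Submodule.finrank_sup_add_finrank_inf_eq L U
  have h6 := Submodule.finrank_mono h2
  rw [h3, h4] at h6
  have h7 := hL.finrank_eq hQ
  have h8 : U ≤ Up := fun x hx u hu => polar_eq_zero_of_singular hU hu hx
  have h9 := Submodule.finrank_mono h8
  rw [hUp, LinearMap.BilinForm.finrank_orthogonal hQ] at h9
  have h10 := Submodule.finrank_le (L ⊔ U)
  apply isLagr_of_finrank hQ hU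
  omega

end abstract

section matrix

variable {ι : Type} [Fintype ι] [DecidableEq ι] {F : Type*} [Field F]
variable (Q : QuadraticForm F (ι → F))

/-- the linear equivalence of a similarity -/
noncomputable def lin (g : ↥(GO ⇑Q)) : (ι → F) ≃ₗ[F] (ι → F) :=
  Matrix.toLin'OfInv (M' := (g.1 : Matrix ι ι F)) (M := ((g.1⁻¹ : GL ι F) : Matrix ι ι F))
    (by rw [← Units.val_mul, inv_mul_cancel, Units.val_one])
    (by rw [← Units.val_mul, mul_inv_cancel, Units.val_one])

theorem lin_coe (g : ↥(GO ⇑Q)) :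
    ((lin Q g : (ι → F) ≃ₗ[F] (ι → F)) : (ι → F) →ₗ[F] (ι → F)) =
      Matrix.toLin' (g.1 : Matrix ι ι F) := rfl

theorem lin_apply (g : ↥(GO ⇑Q)) (v : ι → F) : lin Q g v = (g.1 : Matrix ι ι F) *ᵥ v := rfl

theorem lin_mul (g h : ↥(GO ⇑Q)) : lin Q (g * h) = (lin Q h).trans (lin Q g) := by
  ext v : 1
  rw [LinearEquiv.trans_apply, lin_apply, lin_apply, lin_apply, Matrix.mulVec_mulVec]
  rfl

theorem isSim_lin (g : ↥(GO ⇑Q)) : IsSim Q (lin Q g) :=
  ⟨mu0 Q g, (mu0 Q g).ne_zero, fun v => by rw [lin_apply]; exact mu0_spec Q g v⟩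

variable {Q}

theorem isMax_iff_isLagr (hQ : (polarBilin Q).Nondegenerate) {L : Submodule F (ι → F)}
    (hL : IsLagr Q L) (U : Submodule F (ι → F)) :
    Cfsg.IsMaxTotallySingular ⇑Q U ↔ IsLagr Q U := by
  constructor
  · rintro ⟨h1, h2⟩
    exact isLagr_of_maximal hQ hL h1 h2
  · intro h
    exact ⟨h.1, fun W hW hUW => isLagr_eq_of_singular h hW hUW⟩

/-- the class-preservation predicate can be tested on a single Lagrangian -/
theorem preserves_iff (hQ : (polarBilin Q).Nondegenerate) {L : Submodule F (ι → F)}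
    (hL : IsLagr Q L) (g : ↥(GO ⇑Q)) :
    Cfsg.PreservesSingularClasses ⇑Q (g.1 : Matrix ι ι F) ↔
      Even (finrank F L + finrank F ↥(L ⊓ L.map (Matrix.toLin' (g.1 : Matrix ι ι F)))) := by
  have key : ∀ U : Submodule F (ι → F),
      Cfsg.SameParityClass U (Cfsg.imageSubmodule (g.1 : Matrix ι ι F) U) ↔
      Even (finrank F U + finrank F ↥(U ⊓ U.map (Matrix.toLin' (g.1 : Matrix ι ι F)))) := by
    intro U
    have h1 : finrank F ↥(U ⊓ U.map (Matrix.toLin' (g.1 : Matrix ι ι F))) ≤ finrank F U :=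
      Submodule.finrank_mono inf_le_left
    unfold Cfsg.SameParityClass Cfsg.imageSubmodule
    rw [Nat.even_iff, Nat.even_iff]
    omega
  constructor
  · intro h
    exact (key L).1 (h L ((isMax_iff_isLagr hQ hL L).2 hL))
  · intro h U hU
    rw [isMax_iff_isLagr hQ hL] at hU
    rw [key]
    have h1 := even_par_indep hQ hU hL (isSim_lin Q g)
    rw [lin_coe] at h1
    have h2 := hU.finrank_eq hQ
    have h3 := hL.finrank_eq hQ
    rw [Nat.even_iff] at h h1 ⊢
    omega

theorem preserves_of_map_eq (hQ : (polarBilin Q).Nondegenerate) {L : Submodule F (ι → F)}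
    (hL : IsLagr Q L) (g : ↥(GO ⇑Q)) (h : L.map (Matrix.toLin' (g.1 : Matrix ι ι F)) = L) :
    Cfsg.PreservesSingularClasses ⇑Q (g.1 : Matrix ι ι F) := by
  rw [preserves_iff hQ hL, h, inf_idem]
  exact Even.add_self _

theorem preserves_mul_iff (hQ : (polarBilin Q).Nondegenerate) {L : Submodule F (ι → F)}
    (hL : IsLagr Q L) (g h : ↥(GO ⇑Q))
    (hg : Cfsg.PreservesSingularClasses ⇑Q (g.1 : Matrix ι ι F)) :
    Cfsg.PreservesSingularClasses ⇑Q ((g * h : ↥(GO ⇑Q)).1 : Matrix ι ι F) ↔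
      Cfsg.PreservesSingularClasses ⇑Q (h.1 : Matrix ι ι F) := by
  rw [preserves_iff hQ hL] at hg ⊢
  rw [preserves_iff hQ hL]
  have h1 := even_par_mul hQ hL (isSim_lin Q g) (isSim_lin Q h)
  rw [← lin_mul, lin_coe, lin_coe, lin_coe] at h1
  rw [Nat.even_iff] at hg h1 ⊢
  rw [Nat.even_iff]
  omega

/-- isometries, characteristic not two: classes are preserved iff the determinant is one -/
theorem preserves_iO_iff (h2 : (2 : F) ≠ 0) (hQ : (polarBilin Q).Nondegenerate)
    {L : Submodule F (ι → F)} (hL : IsLagr Q L) (h : ↥(Cfsg.isometryGroup F ⇑Q)) :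
    Cfsg.PreservesSingularClasses ⇑Q ((iO Q h).1 : Matrix ι ι F) ↔ dh Q h = 1 := by
  obtain ⟨vs, hvs, e⟩ := exists_reflProd_eq Q h2 hQ (isoEquiv Q h)
  have hdet := det_of_isoEquiv_eq_reflProd Q h vs hvs e
  have h1 := hL.even_finrank_inf_map_reflProd hQ hL vs hvs
  rw [← e, ← mulVecLin_eq_isoEquiv, inf_idem] at h1
  rw [preserves_iff hQ hL]
  have h3 : dh Q h = 1 ↔ Even vs.length := by
    rw [Units.ext_iff, dh_coe, Units.val_one]
    show ((h : Matrix.GeneralLinearGroup ι F) : Matrix ι ι F).det = 1 ↔ _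
    rw [hdet]
    constructor
    · intro h4
      by_contra h5
      rw [Nat.not_even_iff_odd] at h5
      rw [h5.neg_one_pow] at h4
      apply h2
      linear_combination -h4
    · intro h4
      exact h4.neg_one_pow
  rw [h3]
  have h4 : Matrix.toLin' ((iO Q h).1 : Matrix ι ι F) =
      Matrix.mulVecLin ((h : Matrix.GeneralLinearGroup ι F) : Matrix ι ι F) := rfl
  rw [h4]
  rw [Nat.even_iff] at h1 ⊢
  rw [Nat.even_iff]
  omega

/-- **determinant criterion**: if `E` is a similarity with the same multiplier as `g`, fixing a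
Lagrangian and with `det E = μ(E)^k`, then `g` preserves the classes iff `det g = μ(g)^k` -/
theorem preserves_iff_eps' (h2 : (2 : F) ≠ 0) (hQ : (polarBilin Q).Nondegenerate)
    {L : Submodule F (ι → F)} (hL : IsLagr Q L) (hv : ∃ v, Q v ≠ 0) (k : ℕ) (g E : ↥(GO ⇑Q))
    (hE : L.map (Matrix.toLin' (E.1 : Matrix ι ι F)) = L) (hEe : eps' Q hv k E = 1)
    (hμ : mu Q hv g = mu Q hv E) :
    Cfsg.PreservesSingularClasses ⇑Q (g.1 : Matrix ι ι F) ↔ eps' Q hv k g = 1 := by
  obtain ⟨h, hh⟩ := exists_sc_mul_iO Q hv (E⁻¹ * g) 1 (by rw [map_mul, map_inv, hμ]; simp)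
  have hg : g = E * iO Q h := by
    rw [map_one, one_mul] at hh
    rw [← hh]
    group
  rw [hg, preserves_mul_iff hQ hL _ _ (preserves_of_map_eq hQ hL E hE), preserves_iO_iff h2 hQ hL,
    map_mul, hEe, one_mul, eps'_iO]

end matrix

end Cfsg.Agent.Lib.Helper6.OA
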