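import Mathlib
import Cfsg.Agent.Lib.Helper6.OA.Cls

set_option autoImplicit false
set_option linter.unusedSectionVars false

/-!
# Base change of similarities to an extension field
-/

namespace Cfsg.Agent.Lib.Helper6.OA

open Matrix QuadraticMap Module

/-- a quadratic form is determined by its values and polar values on a basis -/
theorem quad_ext_basis {K V ι : Type*} [Field K] [AddCommGroup V] [Module K V]
    (b : Module.Basis ι K V) (Q₁ Q₂ : QuadraticForm K V) (h1 : ∀ i, Q₁ (b i) = Q₂ (b i))
    (h2 : ∀ i j, polar Q₁ (b i) (b j) = polar Q₂ (b i) (b j)) : Q₁ = Q₂ := by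
  classical
  let _ : LinearOrder ι := linearOrderOfSTO WellOrderingRel
  rw [← toQuadraticMap_toBilin Q₁ b, ← toQuadraticMap_toBilin Q₂ b]
  congr 1
  apply b.ext
  intro i
  apply b.ext
  intro j
  rw [QuadraticMap.toBilin_apply, QuadraticMap.toBilin_apply, h1, h2]

section baseChange

variable {ι : Type} [Fintype ι] [DecidableEq ι] {F K : Type*} [Field F] [Field K] [Algebra F K]

/-- a vector over `F` read over `K` -/
def rat (K : Type*) [Field K] [Algebra F K] (v : ι → F) : ι → K := fun i => algebraMap F K (v i)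

theorem rat_add (u v : ι → F) : rat K (u + v) = rat K u + rat K v := by
  funext i
  simp [rat]

theorem rat_single (i : ι) : rat K (Pi.single i (1 : F)) = Pi.single i (1 : K) := by
  funext j
  by_cases h : j = i
  · subst h; simp [rat]
  · simp [rat, Pi.single_eq_of_ne h]

theorem map_mulVec_rat (g : Matrix ι ι F) (v : ι → F) :
    g.map (algebraMap F K) *ᵥ rat K v = rat K (g *ᵥ v) := by
  funext i
  exact ((algebraMap F K).map_mulVec g v i).symm

variable (QF : QuadraticForm F (ι → F)) (QK : QuadraticForm K (ι → K))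

theorem sim_baseChange (hc : ∀ v : ι → F, QK (rat K v) = algebraMap F K (QF v))
    (g : Matrix ι ι F) (c : F) (hg : ∀ v, QF (g *ᵥ v) = c * QF v) (w : ι → K) :
    QK (g.map (algebraMap F K) *ᵥ w) = algebraMap F K c * QK w := by
  set Q₁ : QuadraticForm K (ι → K) := QK.comp (Matrix.toLin' (g.map (algebraMap F K))) with hQ₁
  set Q₂ : QuadraticForm K (ι → K) := (algebraMap F K c) • QK with hQ₂
  have hr : ∀ v : ι → F, Q₁ (rat K v) = Q₂ (rat K v) := by
    intro v
    rw [hQ₁, hQ₂, QuadraticMap.comp_apply, Matrix.toLin'_apply, map_mulVec_rat, hc, hg,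
      _root_.smul_apply, hc, map_mul, smul_eq_mul]
  have : Q₁ = Q₂ := by
    apply quad_ext_basis (Pi.basisFun K ι)
    · intro i
      rw [Pi.basisFun_apply, ← rat_single (F := F) (K := K) i, hr]
    · intro i j
      unfold polar
      rw [Pi.basisFun_apply, Pi.basisFun_apply, ← rat_single (F := F) (K := K) i,
        ← rat_single (F := F) (K := K) j, ← rat_add, hr, hr, hr]
  have h2 := congrArg (fun Q : QuadraticForm K (ι → K) => Q w) this
  rw [hQ₁, hQ₂] at h2
  simpa [Algebra.smul_def] using h2

variable {QF QK}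

/-- base change of a similarity -/
noncomputable def bc (hc : ∀ v : ι → F, QK (rat K v) = algebraMap F K (QF v)) (g : ↥(GO ⇑QF)) :
    ↥(GO ⇑QK) :=
  ⟨Matrix.GeneralLinearGroup.map (algebraMap F K) g.1,
    ⟨Units.map (algebraMap F K : F →* K) (mu0 QF g), fun w =>
      sim_baseChange QF QK hc (g.1 : Matrix ι ι F) (mu0 QF g) (mu0_spec QF g) w⟩⟩

theorem bc_coe (hc : ∀ v : ι → F, QK (rat K v) = algebraMap F K (QF v)) (g : ↥(GO ⇑QF)) :
    ((bc hc g).1 : Matrix ι ι K) = (g.1 : Matrix ι ι F).map (algebraMap F K) := rfl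

theorem mu_bc (hc : ∀ v : ι → F, QK (rat K v) = algebraMap F K (QF v)) (hv : ∃ v, QF v ≠ 0)
    (hv' : ∃ v, QK v ≠ 0) (g : ↥(GO ⇑QF)) :
    mu QK hv' (bc hc g) = Units.map (algebraMap F K : F →* K) (mu QF hv g) := by
  apply Units.ext
  apply mu_unique
  intro w
  exact sim_baseChange QF QK hc (g.1 : Matrix ι ι F) (mu0 QF g) (mu0_spec QF g) w

theorem eps'_bc (hc : ∀ v : ι → F, QK (rat K v) = algebraMap F K (QF v)) (hv : ∃ v, QF v ≠ 0)
    (hv' : ∃ v, QK v ≠ 0) (k : ℕ) (g : ↥(GO ⇑QF)) :
    eps' QK hv' k (bc hc g) = Units.map (algebraMap F K : F →* K) (eps' QF hv k g) := by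
  show GeneralLinearGroup.det (bc hc g).1 * ((mu QK hv' (bc hc g))⁻¹) ^ k =
    Units.map (algebraMap F K : F →* K) (GeneralLinearGroup.det g.1 * ((mu QF hv g)⁻¹) ^ k)
  rw [mu_bc hc hv hv', map_mul, map_pow, map_inv]
  congr 1
  apply Units.ext
  rw [GeneralLinearGroup.val_det_apply, bc_coe, Units.coe_map, GeneralLinearGroup.val_det_apply]
  exact ((algebraMap F K).map_det _).symm

theorem eps'_bc_eq_one_iff (hc : ∀ v : ι → F, QK (rat K v) = algebraMap F K (QF v))
    (hv : ∃ v, QF v ≠ 0) (hv' : ∃ v, QK v ≠ 0) (k : ℕ) (g : ↥(GO ⇑QF)) :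
    eps' QK hv' k (bc hc g) = 1 ↔ eps' QF hv k g = 1 := by
  rw [eps'_bc hc hv hv']
  constructor
  · intro h
    apply Units.ext
    have := congrArg Units.val h
    rw [Units.coe_map, Units.val_one] at this
    exact (algebraMap F K).injective (by rw [Units.val_one, map_one]; exact this)
  · intro h
    rw [h, map_one]

end baseChange

/-- every element of a finite field of odd order is a square in the quadratic extension -/
theorem isSquare_algebraMap {F K : Type*} [Field F] [Fintype F] [Field K] [Fintype K] [Algebra F K]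
    (hK : Module.finrank F K = 2) (h2 : (2 : F) ≠ 0) (x : F) : IsSquare (algebraMap F K x) := by
  by_cases hx : x = 0
  · rw [hx, map_zero]; exact IsSquare.zero
  have hcard : Fintype.card K = Fintype.card F ^ 2 := by
    rw [Module.card_eq_pow_finrank (K := F) (V := K), hK]
  have h2K : ringChar K ≠ 2 := by
    intro h
    have : (2 : K) = 0 := by
      have := ringChar.Nat.cast_ringChar (R := K)
      rw [h] at this
      exact_mod_cast this
    apply h2
    apply (algebraMap F K).injective
    rw [map_zero, map_ofNat]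
    exact this
  have hx' : algebraMap F K x ≠ 0 := by
    intro h
    exact hx ((algebraMap F K).injective (by rw [h, map_zero]))
  rw [FiniteField.isSquare_iff h2K hx', hcard]
  have hodd : Fintype.card F % 2 = 1 := by
    apply FiniteField.odd_card_of_char_ne_two
    intro h
    apply h2
    have := ringChar.Nat.cast_ringChar (R := F)
    rw [h] at this
    exact_mod_cast this
  obtain ⟨j, hj⟩ : ∃ j, Fintype.card F = 2 * j + 1 := ⟨Fintype.card F / 2, by omega⟩
  have e : Fintype.card F ^ 2 / 2 = (Fintype.card F - 1) * (j + 1) := by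
    rw [hj]
    have : (2 * j + 1) ^ 2 = 2 * (2 * j * (j + 1)) + 1 := by ring
    rw [this]
    have h3 : (2 * (2 * j * (j + 1)) + 1) / 2 = 2 * j * (j + 1) := by omega
    rw [h3]
    simp
  rw [e, pow_mul, ← map_pow, FiniteField.pow_card_sub_one_eq_one x hx, map_one, one_pow]

end Cfsg.Agent.Lib.Helper6.OA
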