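import Mathlib
import Cfsg.Agent.Lib.Helper6.OA.Struct

set_option autoImplicit false
set_option linter.unusedSectionVars false

/-!
# `PGO / PSO`, `PSO / Inn`, `PGO / Inn` inside `Aut(PΩ(Q))`, `q` odd, even dimension
-/

namespace Cfsg.Agent.Lib.Helper6.OA

open Matrix QuadraticMap Module
open Cfsg.Agent.Lib.Helper18 Cfsg.Agent.Lib.Helper18.OmegaCenter

variable {ι : Type} [Fintype ι] [DecidableEq ι] {F : Type*} [Field F] [Fintype F]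
variable {Q : QuadraticForm F (ι → F)} {k : ℕ} {ν : Fˣ} {D : ↥(GO ⇑Q)}

namespace Setup

open scoped Classical in
/-- the sign character `det / μ^k` with values in `ℤˣ` -/
noncomputable def eps (S : Setup Q k ν D) : ↥(GO ⇑Q) →* ℤˣ where
  toFun g := if eps' Q S.hv k g = 1 then 1 else -1
  map_one' := by simp
  map_mul' a b := by
    have hne := S.neg_one_ne_one
    rcases S.eps'_cases a with ha | ha <;> rcases S.eps'_cases b with hb | hb <;>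
      simp [map_mul, ha, hb, hne]

open scoped Classical in
/-- the square class of the multiplier -/
noncomputable def muBar (S : Setup Q k ν D) : ↥(GO ⇑Q) →* ℤˣ :=
  (quadraticChar F).toUnitHom.comp (mu Q S.hv)

variable (S : Setup Q k ν D)
include S

theorem eps_eq_one_iff (g : ↥(GO ⇑Q)) : S.eps g = 1 ↔ eps' Q S.hv k g = 1 := by
  classical
  show (if eps' Q S.hv k g = 1 then (1 : ℤˣ) else -1) = 1 ↔ _
  by_cases h : eps' Q S.hv k g = 1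
  · simp [h]
  · simp [h]

theorem muBar_eq_one_iff (g : ↥(GO ⇑Q)) : S.muBar g = 1 ↔ ∃ l : Fˣ, mu Q S.hv g = l * l := by
  classical
  have h0 := (mu Q S.hv g).ne_zero
  have h1 : S.muBar g = 1 ↔ quadraticChar F ((mu Q S.hv g : Fˣ) : F) = 1 := by
    rw [Units.ext_iff]
    rfl
  rw [h1, quadraticChar_one_iff_isSquare h0]
  constructor
  · rintro ⟨t, ht⟩
    have ht0 : t ≠ 0 := by
      rintro rfl
      exact h0 (by rw [ht]; simp)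
    exact ⟨Units.mk0 t ht0, Units.ext (by rw [ht]; simp)⟩
  · rintro ⟨l, hl⟩
    exact ⟨l, by rw [hl]; simp⟩

theorem muBar_D : S.muBar D = -1 := by
  rcases Int.units_eq_one_or (S.muBar D) with h | h
  · exfalso
    obtain ⟨l, hl⟩ := (S.muBar_eq_one_iff D).1 h
    rw [S.mu_D] at hl
    exact S.nsq ⟨l, by rw [hl]; simp⟩
  · exact h

theorem muBar_iO (h : ↥(Cfsg.isometryGroup F ⇑Q)) : S.muBar (iO Q h) = 1 := by
  rw [muBar_eq_one_iff]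
  exact ⟨1, by rw [mu_iO]; simp⟩

theorem muBar_sc (l : Fˣ) : S.muBar (sc Q l) = 1 := by
  rw [muBar_eq_one_iff]
  exact ⟨l, mu_sc Q S.hv l⟩

theorem eps_sc (l : Fˣ) : S.eps (sc Q l) = 1 := by
  rw [eps_eq_one_iff, eps'_sc Q S.hv k S.dim]

theorem eps_iO_eq_one_iff (h : ↥(Cfsg.isometryGroup F ⇑Q)) : S.eps (iO Q h) = 1 ↔ dh Q h = 1 := by
  rw [eps_eq_one_iff, eps'_iO]

end Setup

/-- `SO(Q)` inside the similarity group -/
abbrev SOE (Q : QuadraticForm F (ι → F)) : Subgroup ↥(GO ⇑Q) :=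
  (Cfsg.specialIsometryGL F ⇑Q).subgroupOf (GO ⇑Q)

theorem mem_SOE (b : ↥(GO ⇑Q)) :
    b ∈ SOE Q ↔ ∃ h : ↥(Cfsg.isometryGroup F ⇑Q), b = iO Q h ∧ dh Q h = 1 := by
  rw [Subgroup.mem_subgroupOf]
  constructor
  · rintro ⟨h1, h2⟩
    exact ⟨⟨b.1, h1⟩, rfl, h2⟩
  · rintro ⟨h, rfl, hh⟩
    exact ⟨h.2, hh⟩

theorem mem_OmE' (b : ↥(GO ⇑Q)) :
    b ∈ OmE ⇑Q ↔ ∃ h : ↥(Cfsg.isometryGroup F ⇑Q), b = iO Q h ∧ h ∈ Cfsg.Omega F ⇑Q := by
  constructor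
  · rintro ⟨s, hs, rfl⟩
    exact ⟨s, rfl, hs⟩
  · rintro ⟨h, rfl, hh⟩
    exact ⟨h, hh, rfl⟩

namespace Setup

variable (S : Setup Q k ν D)
include S

theorem N1_iff (g : ↥(GO ⇑Q)) :
    (∃ b ∈ SOE Q, cG ⇑Q g = cG ⇑Q b) ↔ S.muBar g = 1 ∧ S.eps g = 1 := by
  constructor
  · rintro ⟨b, hb, e⟩
    obtain ⟨h, rfl, hh⟩ := (mem_SOE b).1 hb
    obtain ⟨l, rfl⟩ := (S.cG_eq_iff' _ _).1 e
    rw [map_mul, map_mul, S.muBar_sc, S.muBar_iO, S.eps_sc, (S.eps_iO_eq_one_iff h).2 hh]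
    simp
  · rintro ⟨h1, h2⟩
    obtain ⟨l, hl⟩ := (S.muBar_eq_one_iff g).1 h1
    obtain ⟨h, rfl⟩ := exists_sc_mul_iO Q S.hv g l hl
    rw [map_mul, S.eps_sc, one_mul, S.eps_iO_eq_one_iff] at h2
    exact ⟨iO Q h, (mem_SOE _).2 ⟨h, rfl, h2⟩, (S.cG_eq_iff' _ _).2 ⟨l, rfl⟩⟩

theorem exists_norm (c : F) : ∃ v, Q v = c := exists_Q_eq Q S.h2 S.nd S.hn c

theorem dh_refl {v : ι → F} (hv : Q v ≠ 0) : dh Q (refl Q v) = -1 := by
  apply Units.ext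
  rw [dh_coe, mat_refl, det_reflectionMatrix Q hv]
  simp

theorem eps_refl {v : ι → F} (hv : Q v ≠ 0) : S.eps (iO Q (refl Q v)) = -1 := by
  rcases Int.units_eq_one_or (S.eps (iO Q (refl Q v))) with h | h
  · rw [S.eps_iO_eq_one_iff, S.dh_refl hv] at h
    exact absurd h S.neg_one_ne_one
  · exact h

theorem prod_surjective : Function.Surjective (S.muBar.prod S.eps) := by
  obtain ⟨v, hv⟩ := S.exists_norm 1
  have hv0 : Q v ≠ 0 := by rw [hv]; exact one_ne_zero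
  have hr := S.eps_refl hv0
  have hr' := S.muBar_iO (refl Q v)
  have hD := S.muBar_D
  rintro ⟨a, b⟩
  rcases Int.units_eq_one_or a with rfl | rfl <;> rcases Int.units_eq_one_or b with rfl | rfl
  · exact ⟨1, by simp⟩
  · exact ⟨iO Q (refl Q v), by simp [hr, hr']⟩
  · rcases Int.units_eq_one_or (S.eps D) with h | h
    · exact ⟨D, by simp [hD, h]⟩
    · exact ⟨D * iO Q (refl Q v), by simp [hD, h, hr, hr']⟩
  · rcases Int.units_eq_one_or (S.eps D) with h | h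
    · exact ⟨D * iO Q (refl Q v), by simp [hD, h, hr, hr']⟩
    · exact ⟨D, by simp [hD, h]⟩

theorem pgoAut_eq_map : Cfsg.pgoAut F ⇑Q = (⊤ : Subgroup ↥(GO ⇑Q)).map (cG ⇑Q) := by
  rw [pgoAut_eq, MonoidHom.range_eq_map]

/-- `PGO / PSO ≅ C₂ × C₂` -/
theorem pgo_mod_pso :
    ∃ φ : ↥(Cfsg.pgoAut F ⇑Q) →* Multiplicative (ZMod 2 × ZMod 2), Function.Surjective φ ∧
      φ.ker = (Cfsg.psoAut F ⇑Q).subgroupOf (Cfsg.pgoAut F ⇑Q) := by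
  apply exists_hom_congr units_prod_klein
  rw [S.pgoAut_eq_map, psoAut_eq]
  apply exists_hom_of_map (cG ⇑Q) ⊤ (SOE Q)
    ((S.muBar.prod S.eps).comp (Subgroup.subtype ⊤))
  · intro y
    obtain ⟨g, hg⟩ := S.prod_surjective y
    exact ⟨⟨g, Subgroup.mem_top g⟩, hg⟩
  · intro a
    rw [S.N1_iff]
    simp [Prod.ext_iff]

theorem relIndex_pso_pgo : (Cfsg.psoAut F ⇑Q).relIndex (Cfsg.pgoAut F ⇑Q) = 4 := by
  obtain ⟨φ, h1, h2⟩ := S.pgo_mod_pso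
  rw [relIndex_of_hom _ _ φ h1 h2]
  simp [Nat.card_prod]

theorem polar_sim (g : ↥(GO ⇑Q)) (x y : ι → F) :
    polar ⇑Q ((g.1 : Matrix ι ι F) *ᵥ x) ((g.1 : Matrix ι ι F) *ᵥ y) =
      (mu Q S.hv g : F) * polar ⇑Q x y := by
  unfold polar
  rw [← Matrix.mulVec_add, mu_spec Q S.hv, mu_spec Q S.hv, mu_spec Q S.hv]
  ring

theorem sim_refl (g : ↥(GO ⇑Q)) (v : ι → F) :
    g * iO Q (refl Q v) = iO Q (refl Q ((g.1 : Matrix ι ι F) *ᵥ v)) * g := by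
  apply eq_of_coe_eq
  rw [coe_mul', coe_mul', iO_coe, iO_coe, mat_refl, mat_refl, Matrix.ext_iff_mulVec]
  intro x
  rw [← Matrix.mulVec_mulVec, ← Matrix.mulVec_mulVec, Helper18.reflectionMatrix_mulVec,
    Helper18.reflectionMatrix_mulVec, Matrix.mulVec_sub, Matrix.mulVec_smul, S.polar_sim,
    mu_spec Q S.hv]
  congr 2
  have := (mu Q S.hv g).ne_zero
  rw [mul_inv]
  field_simp

theorem iO_injective : Function.Injective (iO Q) := Subgroup.inclusion_injective _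

theorem iO_negIso : iO Q (negIso Q) = sc Q (-1) := by
  apply eq_of_coe_eq
  rw [iO_coe, mat_negIso, sc_coe]
  simp

theorem dh_negIso : dh Q (negIso Q) = 1 := by
  apply Units.ext
  rw [dh_coe, mat_negIso, Matrix.det_neg, Matrix.det_one, S.dim, pow_mul]
  simp

theorem mem_Inn_iff (g : ↥(GO ⇑Q)) :
    cG ⇑Q g ∈ Cfsg.Inn (Cfsg.POmega F ⇑Q) ↔ ∃ b ∈ OmE ⇑Q, cG ⇑Q g = cG ⇑Q b := by
  rw [Inn_eq, Subgroup.mem_map]
  constructor
  · rintro ⟨b, hb, e⟩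
    exact ⟨b, hb, e.symm⟩
  · rintro ⟨b, hb, e⟩
    exact ⟨b, hb, e.symm⟩

theorem N0_iff (hneg : negIso Q ∈ Cfsg.Omega F ⇑Q) (h : ↥(Cfsg.isometryGroup F ⇑Q)) :
    cG ⇑Q (iO Q h) ∈ Cfsg.Inn (Cfsg.POmega F ⇑Q) ↔ h ∈ Cfsg.Omega F ⇑Q := by
  rw [S.mem_Inn_iff]
  constructor
  · rintro ⟨b, hb, e⟩
    obtain ⟨w, rfl, hw⟩ := (mem_OmE' b).1 hb
    obtain ⟨l, hl⟩ := (S.cG_eq_iff' _ _).1 e
    have h1 := congrArg (mu Q S.hv) hl
    rw [map_mul, mu_iO, mu_iO, mu_sc, mul_one] at h1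
    have h2 := congrArg Units.val h1
    rw [Units.val_mul, Units.val_one, eq_comm, mul_self_eq_one_iff] at h2
    rcases h2 with h2 | h2
    · have : l = 1 := Units.ext h2
      rw [this, map_one, one_mul] at hl
      rw [S.iO_injective hl]
      exact hw
    · have : l = -1 := Units.ext (by rw [h2]; simp)
      rw [this, ← S.iO_negIso, ← map_mul] at hl
      rw [S.iO_injective hl]
      exact mul_mem hneg hw
  · intro hh
    exact ⟨iO Q h, (mem_OmE' _).2 ⟨h, rfl, hh⟩, rfl⟩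

theorem sgn_eq_of_dh {h : ↥(Cfsg.isometryGroup F ⇑Q)} (hd : dh Q h = 1) :
    sgn ⇑Q 1 h = sgn ⇑Q ν h := by
  rcases S.det_sgn h with ⟨-, a⟩ | ⟨a, -⟩
  · rcases Int.units_eq_one_or (sgn ⇑Q 1 h) with h1 | h1 <;>
      rcases Int.units_eq_one_or (sgn ⇑Q ν h) with h2 | h2 <;> rw [h1, h2] at a ⊢ <;>
      simp at a
  · rw [hd] at a
    exact absurd a.symm S.neg_one_ne_one

theorem N0_of_not (hneg : negIso Q ∉ Cfsg.Omega F ⇑Q) (h : ↥(Cfsg.isometryGroup F ⇑Q))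
    (hd : dh Q h = 1) : cG ⇑Q (iO Q h) ∈ Cfsg.Inn (Cfsg.POmega F ⇑Q) := by
  rw [S.mem_Inn_iff]
  have e1 := S.sgn_eq_of_dh hd
  have e2 := S.sgn_eq_of_dh S.dh_negIso
  rcases Int.units_eq_one_or (sgn ⇑Q ν h) with h1 | h1
  · exact ⟨iO Q h, (mem_OmE' _).2 ⟨h, rfl, (S.mem_Omega_iff' h).2 ⟨by rw [e1, h1], h1⟩⟩, rfl⟩
  · have h2 : sgn ⇑Q ν (negIso Q) = -1 := by
      rcases Int.units_eq_one_or (sgn ⇑Q ν (negIso Q)) with h2 | h2
      · exact absurd ((S.mem_Omega_iff' _).2 ⟨by rw [e2, h2], h2⟩) hneg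
      · exact h2
    refine ⟨iO Q (negIso Q * h), (mem_OmE' _).2 ⟨_, rfl, (S.mem_Omega_iff' _).2 ⟨?_, ?_⟩⟩, ?_⟩
    · rw [map_mul, e1, e2, h1, h2]; simp
    · rw [map_mul, h1, h2]; simp
    · rw [map_mul, map_mul, S.iO_negIso, cG_sc, one_mul]

theorem Inn_le_pso : Cfsg.Inn (Cfsg.POmega F ⇑Q) ≤ Cfsg.psoAut F ⇑Q := by
  rw [Inn_eq, psoAut_eq]
  apply Subgroup.map_mono
  intro b hb
  obtain ⟨w, rfl, hw⟩ := (mem_OmE' b).1 hb
  refine (mem_SOE _).2 ⟨w, rfl, ?_⟩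
  obtain ⟨a1, a2⟩ := (S.mem_Omega_iff' w).1 hw
  rcases S.det_sgn w with ⟨a, -⟩ | ⟨-, a⟩
  · exact a
  · rw [a1, a2] at a
    simp at a

theorem pso_le_pgo : Cfsg.psoAut F ⇑Q ≤ Cfsg.pgoAut F ⇑Q := by
  rw [S.pgoAut_eq_map, psoAut_eq]
  exact Subgroup.map_mono le_top

theorem pso_eq_Inn_of_not (hneg : negIso Q ∉ Cfsg.Omega F ⇑Q) :
    Cfsg.psoAut F ⇑Q = Cfsg.Inn (Cfsg.POmega F ⇑Q) := by
  apply le_antisymm _ S.Inn_le_pso
  rw [psoAut_eq]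
  rintro _ ⟨b, hb, rfl⟩
  obtain ⟨h, rfl, hh⟩ := (mem_SOE b).1 hb
  exact S.N0_of_not hneg h hh

/-- `-1 ∉ Ω`: `PSO = Inn` -/
theorem relIndex_Inn_pso_of_not (hneg : negIso Q ∉ Cfsg.Omega F ⇑Q) :
    (Cfsg.Inn (Cfsg.POmega F ⇑Q)).relIndex (Cfsg.psoAut F ⇑Q) = 1 := by
  rw [Subgroup.relIndex_eq_one, S.pso_eq_Inn_of_not hneg]

/-- the isometry underlying an element of `SO` -/
def toO (Q : QuadraticForm F (ι → F)) : ↥(SOE Q) →* ↥(Cfsg.isometryGroup F ⇑Q) :=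
  ((GO ⇑Q).subtype.comp (SOE Q).subtype).codRestrict (Cfsg.isometryGroup F ⇑Q)
    (fun a => (Subgroup.mem_subgroupOf.1 a.2).1)

omit S in
theorem iO_toO (a : ↥(SOE Q)) : iO Q (toO Q a) = a.1 := rfl

omit S in
theorem dh_toO (a : ↥(SOE Q)) : dh Q (toO Q a) = 1 := (Subgroup.mem_subgroupOf.1 a.2).2

/-- the element `r_v r_w` with `Q v = 1`, `Q w = ν` -/
theorem exists_t : ∃ t : ↥(Cfsg.isometryGroup F ⇑Q), dh Q t = 1 ∧ sgn ⇑Q 1 t = -1 := by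
  obtain ⟨v, hv⟩ := S.exists_norm 1
  obtain ⟨w, hw⟩ := S.exists_norm ν
  have hv0 : Q v ≠ 0 := by rw [hv]; exact one_ne_zero
  have hw0 : Q w ≠ 0 := by rw [hw]; exact ν.ne_zero
  refine ⟨refl Q v * refl Q w, ?_, ?_⟩
  · rw [map_mul, S.dh_refl hv0, S.dh_refl hw0]; simp
  · rw [map_mul, (sgn_pair_refl_sq Q S.h2 S.nsq (s := 1) one_ne_zero (by rw [hv]; ring)).1,
      (sgn_pair_refl_nonsq Q S.h2 S.nsq (s := 1) one_ne_zero (by rw [hw]; ring)).1]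
    simp

/-- `-1 ∈ Ω`: `PSO / Inn` has order two -/
theorem relIndex_Inn_pso (hneg : negIso Q ∈ Cfsg.Omega F ⇑Q) :
    (Cfsg.Inn (Cfsg.POmega F ⇑Q)).relIndex (Cfsg.psoAut F ⇑Q) = 2 := by
  have key : ∃ φ : ↥((SOE Q).map (cG ⇑Q)) →* ℤˣ, Function.Surjective φ ∧
      φ.ker = ((OmE ⇑Q).map (cG ⇑Q)).subgroupOf ((SOE Q).map (cG ⇑Q)) := by
    apply exists_hom_of_map (cG ⇑Q) (SOE Q) (OmE ⇑Q) ((sgn ⇑Q 1).comp (toO Q))
    · obtain ⟨t, ht1, ht2⟩ := S.exists_t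
      intro y
      rcases Int.units_eq_one_or y with rfl | rfl
      · exact ⟨1, by simp⟩
      · exact ⟨⟨iO Q t, (mem_SOE _).2 ⟨t, rfl, ht1⟩⟩, ht2⟩
    · intro a
      rw [← S.mem_Inn_iff, ← iO_toO a, S.N0_iff hneg, S.mem_Omega_iff', MonoidHom.comp_apply,
        ← S.sgn_eq_of_dh (dh_toO a), and_self]
  obtain ⟨φ, h1, h2⟩ := key
  rw [Inn_eq, psoAut_eq, relIndex_of_hom _ _ φ h1 h2]
  simp

theorem relIndex_Inn_pgo (hneg : negIso Q ∈ Cfsg.Omega F ⇑Q) :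
    (Cfsg.Inn (Cfsg.POmega F ⇑Q)).relIndex (Cfsg.pgoAut F ⇑Q) = 8 := by
  rw [← Subgroup.relIndex_mul_relIndex _ _ _ S.Inn_le_pso S.pso_le_pgo, S.relIndex_Inn_pso hneg,
    S.relIndex_pso_pgo]

theorem relIndex_Inn_pgo_of_not (hneg : negIso Q ∉ Cfsg.Omega F ⇑Q) :
    (Cfsg.Inn (Cfsg.POmega F ⇑Q)).relIndex (Cfsg.pgoAut F ⇑Q) = 4 := by
  rw [← S.pso_eq_Inn_of_not hneg, S.relIndex_pso_pgo]

/-- `-1 ∉ Ω`: `PGO / Inn ≅ C₂ × C₂` -/
theorem pgo_mod_Inn_of_not (hneg : negIso Q ∉ Cfsg.Omega F ⇑Q) :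
    ∃ φ : ↥(Cfsg.pgoAut F ⇑Q) →* Multiplicative (ZMod 2 × ZMod 2), Function.Surjective φ ∧
      φ.ker = (Cfsg.Inn (Cfsg.POmega F ⇑Q)).subgroupOf (Cfsg.pgoAut F ⇑Q) := by
  rw [← S.pso_eq_Inn_of_not hneg]
  exact S.pgo_mod_pso

theorem cG_mem_pgo (g : ↥(GO ⇑Q)) : cG ⇑Q g ∈ Cfsg.pgoAut F ⇑Q := by
  rw [pgoAut_eq]
  exact ⟨g, rfl⟩

/-- the square of `D r_v` -/
theorem Dr_sq (v : ι → F) :
    (D * iO Q (refl Q v)) * (D * iO Q (refl Q v)) =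
      sc Q ν * iO Q (refl Q ((D.1 : Matrix ι ι F) *ᵥ v) * refl Q v) := by
  calc (D * iO Q (refl Q v)) * (D * iO Q (refl Q v))
      = (iO Q (refl Q ((D.1 : Matrix ι ι F) *ᵥ v)) * D) * (D * iO Q (refl Q v)) := by
        rw [← S.sim_refl D v]
    _ = iO Q (refl Q ((D.1 : Matrix ι ι F) *ᵥ v)) * (D * D) * iO Q (refl Q v) := by group
    _ = (sc Q ν * iO Q (refl Q ((D.1 : Matrix ι ι F) *ᵥ v))) * iO Q (refl Q v) := by
        rw [S.Dsq, sc_comm]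
    _ = _ := by rw [map_mul, mul_assoc]

/-- `-1 ∈ Ω`: `PGO / Inn` is dihedral of order 8 -/
theorem pgo_mod_Inn (hneg : negIso Q ∈ Cfsg.Omega F ⇑Q) :
    ∃ φ : ↥(Cfsg.pgoAut F ⇑Q) →* DihedralGroup 4, Function.Surjective φ ∧
      φ.ker = (Cfsg.Inn (Cfsg.POmega F ⇑Q)).subgroupOf (Cfsg.pgoAut F ⇑Q) := by
  obtain ⟨v, hv⟩ := S.exists_norm 1
  have hv0 : Q v ≠ 0 := by rw [hv]; exact one_ne_zero
  set t := refl Q ((D.1 : Matrix ι ι F) *ᵥ v) * refl Q v with ht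
  have hsq : cG ⇑Q (D * iO Q (refl Q v)) * cG ⇑Q (D * iO Q (refl Q v)) = cG ⇑Q (iO Q t) := by
    rw [← map_mul, S.Dr_sq, map_mul, cG_sc, one_mul]
  have ht1 : sgn ⇑Q 1 t = -1 := by
    rw [ht, map_mul, (sgn_pair_refl_sq Q S.h2 S.nsq (v := v) (s := 1) one_ne_zero (by rw [hv]; ring)).1,
      (sgn_pair_refl_nonsq Q S.h2 S.nsq (v := (D.1 : Matrix ι ι F) *ᵥ v) (s := 1) one_ne_zero
        (by rw [S.Dmul, hv]; ring)).1]
    simp
  apply d8_of _ _ (S.relIndex_Inn_pgo hneg) (cG ⇑Q (D * iO Q (refl Q v))) (cG ⇑Q (iO Q (refl Q v)))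
    (S.cG_mem_pgo _) (S.cG_mem_pgo _)
  · rw [hsq, S.N0_iff hneg, S.mem_Omega_iff', ht1]
    simp
  · rw [hsq, ← map_mul, ← map_mul, S.N0_iff hneg, S.mem_Omega_iff', map_mul, map_mul]
    simp
  · rw [← map_mul, ← map_mul, refl_mul_self]
    simp
  · have : iO Q (refl Q v) * (D * iO Q (refl Q v)) * (iO Q (refl Q v) * (D * iO Q (refl Q v))) =
        sc Q ν := by
      calc iO Q (refl Q v) * (D * iO Q (refl Q v)) * (iO Q (refl Q v) * (D * iO Q (refl Q v)))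
          = iO Q (refl Q v) * D * (iO Q (refl Q v) * iO Q (refl Q v)) * D * iO Q (refl Q v) := by
            group
        _ = iO Q (refl Q v) * (D * D) * iO Q (refl Q v) := by
            rw [← map_mul, refl_mul_self, map_one]; group
        _ = sc Q ν * (iO Q (refl Q v) * iO Q (refl Q v)) := by
            rw [S.Dsq, ← sc_comm]; group
        _ = _ := by rw [← map_mul, refl_mul_self, map_one, mul_one]
    rw [← map_mul, ← map_mul, this, cG_sc]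
    exact one_mem _

end Setup

end Cfsg.Agent.Lib.Helper6.OA
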