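import Mathlib
import Cfsg.Agent.Lib.Helper6.OA.Main

set_option autoImplicit false
set_option linter.unusedSectionVars false

/-!
# The image of `ker eps` (the inner-diagonal group) modulo the inner automorphisms
-/

namespace Cfsg.Agent.Lib.Helper6.OA

open Matrix QuadraticMap Module
open Cfsg.Agent.Lib.Helper18 Cfsg.Agent.Lib.Helper18.OmegaCenter

variable {ι : Type} [Fintype ι] [DecidableEq ι] {F : Type*} [Field F] [Fintype F]
variable {Q : QuadraticForm F (ι → F)} {k : ℕ} {ν : Fˣ} {D : ↥(GO ⇑Q)}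

namespace Setup

/-- the image in `Aut(PΩ)` of the similarities with `det = μ^k` -/
noncomputable def ID (S : Setup Q k ν D) : Subgroup (MulAut (Cfsg.POmega F ⇑Q)) :=
  S.eps.ker.map (cG ⇑Q)

variable (S : Setup Q k ν D)
include S

theorem eps_congr {a b : ↥(GO ⇑Q)} (h : cG ⇑Q a = cG ⇑Q b) : S.eps a = S.eps b := by
  obtain ⟨l, rfl⟩ := (S.cG_eq_iff' a b).1 h
  rw [map_mul, S.eps_sc, one_mul]

theorem cG_mem_ID_iff (g : ↥(GO ⇑Q)) : cG ⇑Q g ∈ S.ID ↔ S.eps g = 1 := by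
  constructor
  · rintro ⟨b, hb, e⟩
    rw [← S.eps_congr e]
    exact hb
  · intro h
    exact ⟨g, h, rfl⟩

theorem pgo_mod_ID :
    ∃ φ : ↥(Cfsg.pgoAut F ⇑Q) →* ℤˣ, Function.Surjective φ ∧
      φ.ker = S.ID.subgroupOf (Cfsg.pgoAut F ⇑Q) := by
  rw [S.pgoAut_eq_map]
  apply exists_hom_of_map (cG ⇑Q) ⊤ S.eps.ker (S.eps.comp (Subgroup.subtype ⊤))
  · intro y
    obtain ⟨g, hg⟩ := S.prod_surjective (1, y)
    refine ⟨⟨g, Subgroup.mem_top g⟩, ?_⟩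
    have := congrArg Prod.snd hg
    exact this
  · intro a
    constructor
    · intro h
      exact ⟨a.1, h, rfl⟩
    · rintro ⟨b, hb, e⟩
      show S.eps a.1 = 1
      rw [S.eps_congr e]
      exact hb

theorem relIndex_ID_pgo : S.ID.relIndex (Cfsg.pgoAut F ⇑Q) = 2 := by
  obtain ⟨φ, h1, h2⟩ := S.pgo_mod_ID
  rw [relIndex_of_hom _ _ φ h1 h2]
  simp

theorem ID_le_pgo : S.ID ≤ Cfsg.pgoAut F ⇑Q := by
  rw [S.pgoAut_eq_map]
  exact Subgroup.map_mono le_top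

theorem pso_le_ID : Cfsg.psoAut F ⇑Q ≤ S.ID := by
  rw [psoAut_eq]
  apply Subgroup.map_mono
  intro b hb
  obtain ⟨h, rfl, hh⟩ := (mem_SOE b).1 hb
  rw [MonoidHom.mem_ker, S.eps_iO_eq_one_iff]
  exact hh

theorem Inn_le_ID : Cfsg.Inn (Cfsg.POmega F ⇑Q) ≤ S.ID := S.Inn_le_pso.trans S.pso_le_ID

theorem relIndex_Inn_ID (hneg : negIso Q ∈ Cfsg.Omega F ⇑Q) :
    (Cfsg.Inn (Cfsg.POmega F ⇑Q)).relIndex S.ID = 4 := by
  have h := Subgroup.relIndex_mul_relIndex _ _ _ S.Inn_le_ID S.ID_le_pgo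
  rw [S.relIndex_ID_pgo, S.relIndex_Inn_pgo hneg] at h
  omega

theorem relIndex_Inn_ID_of_not (hneg : negIso Q ∉ Cfsg.Omega F ⇑Q) :
    (Cfsg.Inn (Cfsg.POmega F ⇑Q)).relIndex S.ID = 2 := by
  have h := Subgroup.relIndex_mul_relIndex _ _ _ S.Inn_le_ID S.ID_le_pgo
  rw [S.relIndex_ID_pgo, S.relIndex_Inn_pgo_of_not hneg] at h
  omega

/-- `-1 ∉ Ω`: `ID / Inn ≅ C₂` -/
theorem ID_mod_Inn_of_not (hneg : negIso Q ∉ Cfsg.Omega F ⇑Q) :
    ∃ φ : ↥S.ID →* Multiplicative (ZMod 2), Function.Surjective φ ∧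
      φ.ker = (Cfsg.Inn (Cfsg.POmega F ⇑Q)).subgroupOf S.ID :=
  c2_of _ _ (S.relIndex_Inn_ID_of_not hneg)

/-- `-1 ∈ Ω`, `eps D = -1`: `ID / Inn ≅ C₄` -/
theorem ID_mod_Inn_c4 (hneg : negIso Q ∈ Cfsg.Omega F ⇑Q) (hD : S.eps D = -1) :
    ∃ φ : ↥S.ID →* Multiplicative (ZMod 4), Function.Surjective φ ∧
      φ.ker = (Cfsg.Inn (Cfsg.POmega F ⇑Q)).subgroupOf S.ID := by
  obtain ⟨v, hv⟩ := S.exists_norm 1
  have hv0 : Q v ≠ 0 := by rw [hv]; exact one_ne_zero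
  set t := refl Q ((D.1 : Matrix ι ι F) *ᵥ v) * refl Q v with ht
  have hsq : cG ⇑Q (D * iO Q (refl Q v)) * cG ⇑Q (D * iO Q (refl Q v)) = cG ⇑Q (iO Q t) := by
    rw [← map_mul, S.Dr_sq, map_mul, cG_sc, one_mul]
  have ht1 : sgn ⇑Q 1 t = -1 := by
    rw [ht, map_mul, (sgn_pair_refl_sq Q S.h2 S.nsq (v := v) (s := 1) one_ne_zero (by rw [hv]; ring)).1,
      (sgn_pair_refl_nonsq Q S.h2 S.nsq (v := (D.1 : Matrix ι ι F) *ᵥ v) (s := 1) one_ne_zero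
        (by rw [S.Dmul, hv]; ring)).1]
    simp
  apply c4_of _ _ (S.relIndex_Inn_ID hneg) (cG ⇑Q (D * iO Q (refl Q v)))
  · rw [S.cG_mem_ID_iff, map_mul, hD, S.eps_refl hv0]
    simp
  · rw [hsq, S.N0_iff hneg, S.mem_Omega_iff', ht1]
    simp

/-- conjugation by `D` swaps the two sign characters -/
theorem exists_conj_D (h : ↥(Cfsg.isometryGroup F ⇑Q)) :
    ∃ h' : ↥(Cfsg.isometryGroup F ⇑Q), D * iO Q h = iO Q h' * D ∧
      sgn ⇑Q 1 h' = sgn ⇑Q ν h ∧ sgn ⇑Q ν h' = sgn ⇑Q 1 h := by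
  have hm : h ∈ Subgroup.closure (reflSet Q) := by
    rw [closure_reflSet_eq_top Q S.h2 S.nd]
    exact Subgroup.mem_top _
  induction hm using Subgroup.closure_induction with
  | mem x hx =>
    obtain ⟨v, hv, rfl⟩ := hx
    refine ⟨refl Q ((D.1 : Matrix ι ι F) *ᵥ v), S.sim_refl D v, ?_⟩
    rcases sq_or_nonsq S.h2 S.nsq hv with ⟨t, ht⟩ | ⟨t, ht⟩
    · have ht0 : t ≠ 0 := by
        rintro rfl
        exact hv (by rw [ht]; simp)
      obtain ⟨a, b⟩ := sgn_pair_refl_sq Q S.h2 S.nsq ht0 ht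
      obtain ⟨a', b'⟩ := sgn_pair_refl_nonsq Q S.h2 S.nsq (v := (D.1 : Matrix ι ι F) *ᵥ v) ht0
        (by rw [S.Dmul, ht])
      rw [a, b, a', b']
      exact ⟨rfl, rfl⟩
    · have ht0 : t ≠ 0 := by
        rintro rfl
        exact hv (by rw [ht]; simp)
      obtain ⟨a, b⟩ := sgn_pair_refl_nonsq Q S.h2 S.nsq ht0 ht
      obtain ⟨a', b'⟩ := sgn_pair_refl_sq Q S.h2 S.nsq (v := (D.1 : Matrix ι ι F) *ᵥ v)
        (s := ν * t) (mul_ne_zero ν.ne_zero ht0) (by rw [S.Dmul, ht]; ring)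
      rw [a, b, a', b']
      exact ⟨rfl, rfl⟩
  | one => exact ⟨1, by simp, by simp, by simp⟩
  | mul x y _ _ hx hy =>
    obtain ⟨x', ex, ax, bx⟩ := hx
    obtain ⟨y', ey, ay, by'⟩ := hy
    refine ⟨x' * y', ?_, by rw [map_mul, map_mul, ax, ay], by rw [map_mul, map_mul, bx, by']⟩
    rw [map_mul, map_mul, ← mul_assoc, ex, mul_assoc, ey, mul_assoc]
  | inv x _ hx =>
    obtain ⟨x', ex, ax, bx⟩ := hx
    refine ⟨x'⁻¹, ?_, by rw [map_inv, map_inv, ax], by rw [map_inv, map_inv, bx]⟩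
    rw [map_inv, map_inv, eq_inv_mul_iff_mul_eq, ← mul_assoc, ← ex]
    group

/-- `-1 ∈ Ω`, `eps D = 1`: `ID / Inn ≅ C₂ × C₂` -/
theorem ID_mod_Inn_v4 (hneg : negIso Q ∈ Cfsg.Omega F ⇑Q) (hD : S.eps D = 1) :
    ∃ φ : ↥S.ID →* Multiplicative (ZMod 2 × ZMod 2), Function.Surjective φ ∧
      φ.ker = (Cfsg.Inn (Cfsg.POmega F ⇑Q)).subgroupOf S.ID := by
  apply v4_of _ _ (S.relIndex_Inn_ID hneg)
  rintro _ ⟨g, hg, rfl⟩
  rw [SetLike.mem_coe, MonoidHom.mem_ker] at hg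
  obtain ⟨l, h, rfl | rfl⟩ := S.cases g
  · rw [map_mul, cG_sc, one_mul, ← map_mul, ← map_mul, S.N0_iff hneg, S.mem_Omega_iff', map_mul,
      map_mul]
    simp
  · rw [map_mul, map_mul, S.eps_sc, hD, one_mul, one_mul, S.eps_iO_eq_one_iff] at hg
    obtain ⟨h', e, a, b⟩ := S.exists_conj_D h
    have e2 : (D * iO Q h) * (D * iO Q h) = sc Q ν * iO Q (h' * h) := by
      calc (D * iO Q h) * (D * iO Q h) = (iO Q h' * D) * (D * iO Q h) := by rw [e]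
        _ = iO Q h' * (D * D) * iO Q h := by group
        _ = sc Q ν * (iO Q h' * iO Q h) := by rw [S.Dsq, ← sc_comm]; group
        _ = _ := by rw [map_mul]
    rw [mul_assoc, map_mul, cG_sc, one_mul, ← map_mul, e2, map_mul, cG_sc, one_mul, S.N0_iff hneg,
      S.mem_Omega_iff', map_mul, map_mul, a, b, S.sgn_eq_of_dh hg]
    simp

end Setup

end Cfsg.Agent.Lib.Helper6.OA
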