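import Mathlib
import Cfsg.Agent.Lib.Helper6.OA.Main
import Cfsg.Agent.Lib.Helper18.OmegaFrames
import Cfsg.Agent.Lib.Helper49.HypPairs
import Cfsg.Agent.S0790
import Cfsg.Agent.S0791

set_option autoImplicit false
set_option linter.unusedSectionVars false

/-!
# The set-up for the standard plus and minus forms
-/

namespace Cfsg.Agent.Lib.Helper6.OA

open Matrix QuadraticMap Module
open Cfsg.Agent.Lib.Helper18 Cfsg.Agent.Lib.Helper18.OmegaCenter

section general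

variable {ι : Type} [Fintype ι] [DecidableEq ι] {F : Type*} [Field F] [Fintype F]
variable (Q : QuadraticForm F (ι → F))

/-- build the similarity `D` from a matrix with `M² = ν` -/
theorem exists_setup (k : ℕ) (ν : Fˣ) (M : Matrix ι ι F) (h2 : (2 : F) ≠ 0)
    (nd : (polarBilin Q).Nondegenerate) (fr : ∃ e f : Fin 3 → (ι → F), Frame3 Q e f)
    (hd : 7 ≤ Fintype.card ι) (dim : Fintype.card ι = 2 * k) (nsq : ¬ IsSquare (ν : F))
    (hM : ∀ v, Q (M *ᵥ v) = ν * Q v) (hM2 : M * M = (ν : F) • 1) :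
    ∃ D : ↥(GO ⇑Q), (D.1 : Matrix ι ι F) = M ∧ Setup Q k ν D := by
  have hν := ν.ne_zero
  let g : GL ι F := ⟨M, (ν : F)⁻¹ • M, by
    rw [Matrix.mul_smul, hM2, smul_smul, inv_mul_cancel₀ hν, one_smul], by
    rw [Matrix.smul_mul, hM2, smul_smul, inv_mul_cancel₀ hν, one_smul]⟩
  refine ⟨⟨g, ⟨ν, hM⟩⟩, rfl, ⟨h2, nd, fr, hd, dim, nsq, hM, ?_⟩⟩
  apply eq_of_coe_eq
  rw [coe_mul', sc_coe]
  exact hM2

theorem neg_mem_iff :
    (∃ g : ↥(Cfsg.isometryGroup F ⇑Q), g ∈ Cfsg.Omega F ⇑Q ∧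
      ((g : Matrix.GeneralLinearGroup ι F) : Matrix ι ι F) = -1) ↔ negIso Q ∈ Cfsg.Omega F ⇑Q := by
  constructor
  · rintro ⟨g, hg, hg1⟩
    have : g = negIso Q := mat_injective hg1
    rw [← this]; exact hg
  · intro h
    exact ⟨negIso Q, h, rfl⟩

end general

theorem two_ne_zero_of_odd {F : Type*} [Field F] [Fintype F] (hodd : Odd (Fintype.card F)) :
    (2 : F) ≠ 0 := by
  intro h
  have h2 : ringChar F = 2 := by
    have : ringChar F ∣ 2 := ringChar.dvd (by exact_mod_cast h)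
    rcases (Nat.dvd_prime Nat.prime_two).1 this with h1 | h1
    · exact absurd h1 (CharP.ringChar_ne_one)
    · exact h1
  have := FiniteField.even_card_of_char_two h2
  rw [Nat.odd_iff] at hodd
  omega

theorem pow_mod_four_eq_one (q m : ℕ) (hq : Odd q) : q ^ m % 4 = 1 ↔ ¬ (Odd m ∧ q % 4 = 3) := by
  have h1 : q % 4 = 1 ∨ q % 4 = 3 := by
    rw [Nat.odd_iff] at hq; omega
  rcases h1 with h1 | h1
  · rw [Nat.pow_mod, h1]; simp
  · rw [Nat.pow_mod, h1]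
    rcases Nat.even_or_odd' m with ⟨j, rfl | rfl⟩
    · have : 3 ^ (2 * j) % 4 = 1 := by
        rw [pow_mul, Nat.pow_mod]; simp
      simp [this]
    · have : 3 ^ (2 * j + 1) % 4 = 3 := by
        rw [pow_succ, pow_mul, Nat.mul_mod, Nat.pow_mod]; simp
      simp [this]

theorem pow_mod_four_eq_three (q m : ℕ) (hq : Odd q) : q ^ m % 4 = 3 ↔ (Odd m ∧ q % 4 = 3) := by
  have h0 := pow_mod_four_eq_one q m hq
  have h1 : Odd (q ^ m) := hq.pow
  rw [Nat.odd_iff] at h1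
  constructor
  · intro h
    by_contra hc
    have := h0.2 hc
    omega
  · intro h
    by_contra hc
    have : q ^ m % 4 = 1 := by omega
    exact (h0.1 this) h

section plus

variable {F : Type*} [Field F] [Fintype F]

open Cfsg.Agent.Lib.Helper49 in
theorem setup_plus (hodd : Odd (Fintype.card F)) {m : ℕ} (hm : 4 ≤ m) :
    ∃ (ν : Fˣ) (D : ↥(GO ⇑(plusQF m F))),
      (D.1 : Matrix (Fin m ⊕ Fin m) (Fin m ⊕ Fin m) F) = Matrix.fromBlocks 0 ((ν : F) • 1) 1 0 ∧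
        Setup (plusQF m F) m ν D := by
  have h2 := two_ne_zero_of_odd hodd
  obtain ⟨δ, hδ⟩ := FiniteField.exists_nonsquare (ringChar_ne_two h2)
  have hδ0 : δ ≠ 0 := by
    rintro rfl
    exact hδ IsSquare.zero
  refine ⟨Units.mk0 δ hδ0, ?_⟩
  apply exists_setup (plusQF m F) m (Units.mk0 δ hδ0) _ h2 (plusQF_nondegenerate m F)
    ⟨_, _, frame_plus m (by omega)⟩ (by simp; omega) (by simp [two_mul]) hδ
  · intro v
    rw [plusQF_coe]
    simp only [Cfsg.quadFormPlus, Units.val_mk0, Finset.mul_sum]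
    apply Finset.sum_congr rfl
    intro i _
    have e1 : (Matrix.fromBlocks (0 : Matrix (Fin m) (Fin m) F) (δ • (1 : Matrix (Fin m) (Fin m) F)) (1 : Matrix (Fin m) (Fin m) F) (0 : Matrix (Fin m) (Fin m) F) *ᵥ v) (Sum.inl i) =
        δ * v (Sum.inr i) := by
      simp [Matrix.mulVec, dotProduct, Matrix.one_apply]
    have e2 : (Matrix.fromBlocks (0 : Matrix (Fin m) (Fin m) F) (δ • (1 : Matrix (Fin m) (Fin m) F)) (1 : Matrix (Fin m) (Fin m) F) (0 : Matrix (Fin m) (Fin m) F) *ᵥ v) (Sum.inr i) =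
        v (Sum.inl i) := by
      simp [Matrix.mulVec, dotProduct, Matrix.one_apply]
    rw [e1, e2]
    ring
  · rw [Matrix.fromBlocks_multiply]
    simp only [Units.val_mk0, Matrix.zero_mul, Matrix.mul_zero, Matrix.mul_one, Matrix.one_mul,
      zero_add, add_zero]
    rw [← Matrix.fromBlocks_one, Matrix.fromBlocks_smul]
    simp

open Cfsg.Agent.Lib.Helper49 in
theorem neg_mem_plus_iff (hodd : Odd (Fintype.card F)) {m : ℕ} (hm : 4 ≤ m) :
    negIso (plusQF m F) ∈ Cfsg.Omega F ⇑(plusQF m F) ↔ ¬ (Odd m ∧ Fintype.card F % 4 = 3) := by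
  rw [← neg_mem_iff, ← pow_mod_four_eq_one _ _ hodd, plusQF_coe]
  exact Cfsg.Agent.S0790.result rfl hodd m (by omega)

end plus

section minus

variable {F : Type*} [Field F] [Fintype F]

theorem disc_ne_zero (h2 : (2 : F) ≠ 0) (a b : F)
    (hab : ∀ z₁ z₂ : F, z₁ ^ 2 + a * z₁ * z₂ + b * z₂ ^ 2 = 0 → z₁ = 0 ∧ z₂ = 0) :
    4 * b - a ^ 2 ≠ 0 := by
  intro h
  have := (hab (-a / 2) 1 (by field_simp; linear_combination h)).2
  exact one_ne_zero this

theorem exists_norm_eq (h2 : (2 : F) ≠ 0) (a b : F)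
    (hab : ∀ z₁ z₂ : F, z₁ ^ 2 + a * z₁ * z₂ + b * z₂ ^ 2 = 0 → z₁ = 0 ∧ z₂ = 0) (c : F) :
    ∃ u₁ u₂ : F, u₁ ^ 2 + a * u₁ * u₂ + b * u₂ ^ 2 = c := by
  have hd := disc_ne_zero h2 a b hab
  have h4 : (4 : F) ≠ 0 := by
    have : (4 : F) = 2 * 2 := by norm_num
    rw [this]; exact mul_ne_zero h2 h2
  obtain ⟨x, y, hxy⟩ := exists_binary_eq h2 (a := 1) (b := (4 * b - a ^ 2) / 4) one_ne_zero
    (div_ne_zero hd h4) c
  refine ⟨x - a * y / 2, y, ?_⟩
  rw [← hxy]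
  field_simp
  ring

/-- the matrix of the similarity `D` for the minus form -/
def minusD (m : ℕ) (a b ν u₁ u₂ : F) :
    Matrix ((Fin m ⊕ Fin m) ⊕ Fin 2) ((Fin m ⊕ Fin m) ⊕ Fin 2) F :=
  Matrix.fromBlocks
    (Matrix.fromBlocks (0 : Matrix (Fin m) (Fin m) F) (ν • (1 : Matrix (Fin m) (Fin m) F))
      (1 : Matrix (Fin m) (Fin m) F) (0 : Matrix (Fin m) (Fin m) F)) 0 0
    !![u₁, a * u₁ + b * u₂; u₂, -u₁]

open Cfsg.Agent.Lib.Helper49 in
theorem setup_minus (hodd : Odd (Fintype.card F)) {m : ℕ} (hm : 3 ≤ m) (a b : F)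
    (hab : ∀ z₁ z₂ : F, z₁ ^ 2 + a * z₁ * z₂ + b * z₂ ^ 2 = 0 → z₁ = 0 ∧ z₂ = 0) :
    ∃ (ν : Fˣ) (u₁ u₂ : F) (D : ↥(GO ⇑(minusQF m F a b))),
      u₁ ^ 2 + a * u₁ * u₂ + b * u₂ ^ 2 = ν ∧
      (D.1 : Matrix ((Fin m ⊕ Fin m) ⊕ Fin 2) ((Fin m ⊕ Fin m) ⊕ Fin 2) F) = minusD m a b ν u₁ u₂ ∧
        Setup (minusQF m F a b) (m + 1) ν D := by
  have h2 := two_ne_zero_of_odd hodd
  obtain ⟨δ, hδ⟩ := FiniteField.exists_nonsquare (ringChar_ne_two h2)
  have hδ0 : δ ≠ 0 := by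
    rintro rfl
    exact hδ IsSquare.zero
  obtain ⟨u₁, u₂, hu⟩ := exists_norm_eq h2 a b hab δ
  refine ⟨Units.mk0 δ hδ0, u₁, u₂, ?_⟩
  have key := exists_setup (minusQF m F a b) (m + 1) (Units.mk0 δ hδ0) (minusD m a b δ u₁ u₂) h2
    (minusQF_nondegenerate m F a b (disc_ne_zero h2 a b hab))
    ⟨_, _, frame_minus m hm a b⟩ (by simp; omega) (by simp; ring) hδ ?_ ?_
  · obtain ⟨D, h1, h3⟩ := key
    exact ⟨D, hu, h1, h3⟩
  · intro v
    rw [minusQF_coe]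
    have e1 : ∀ i, (minusD m a b δ u₁ u₂ *ᵥ v) (Sum.inl (Sum.inl i)) = δ * v (Sum.inl (Sum.inr i)) := by
      intro i
      simp [minusD, Matrix.mulVec, dotProduct, Matrix.one_apply]
    have e2 : ∀ i, (minusD m a b δ u₁ u₂ *ᵥ v) (Sum.inl (Sum.inr i)) = v (Sum.inl (Sum.inl i)) := by
      intro i
      simp [minusD, Matrix.mulVec, dotProduct, Matrix.one_apply]
    have e3 : (minusD m a b δ u₁ u₂ *ᵥ v) (Sum.inr 0) =
        u₁ * v (Sum.inr 0) + (a * u₁ + b * u₂) * v (Sum.inr 1) := by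
      simp [minusD, Matrix.mulVec, dotProduct, Fin.sum_univ_two]
    have e4 : (minusD m a b δ u₁ u₂ *ᵥ v) (Sum.inr 1) = u₂ * v (Sum.inr 0) - u₁ * v (Sum.inr 1) := by
      simp [minusD, Matrix.mulVec, dotProduct, Fin.sum_univ_two]
      ring
    simp only [Cfsg.quadFormMinus, Units.val_mk0, e1, e2, e3, e4, mul_add, Finset.mul_sum]
    congr 1
    · apply Finset.sum_congr rfl
      intro i _
      ring
    · rw [← hu]; ring
  · unfold minusD
    rw [Matrix.fromBlocks_multiply, Matrix.fromBlocks_multiply]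
    simp only [Units.val_mk0, Matrix.zero_mul, Matrix.mul_zero, Matrix.mul_one, Matrix.one_mul,
      zero_add, add_zero]
    have hT : !![u₁, a * u₁ + b * u₂; u₂, -u₁] * !![u₁, a * u₁ + b * u₂; u₂, -u₁] =
        δ • (1 : Matrix (Fin 2) (Fin 2) F) := by
      rw [← hu]
      ext i j
      fin_cases i <;> fin_cases j <;> simp [Matrix.mul_apply, Fin.sum_univ_two] <;> ring
    rw [hT, ← Matrix.fromBlocks_one, ← Matrix.fromBlocks_one, Matrix.fromBlocks_smul,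
      Matrix.fromBlocks_smul]
    simp

open Cfsg.Agent.Lib.Helper49 in
theorem neg_mem_minus_iff (hodd : Odd (Fintype.card F)) {m : ℕ} (a b : F)
    (hab : ∀ z₁ z₂ : F, z₁ ^ 2 + a * z₁ * z₂ + b * z₂ ^ 2 = 0 → z₁ = 0 ∧ z₂ = 0) :
    negIso (minusQF m F a b) ∈ Cfsg.Omega F ⇑(minusQF m F a b) ↔
      (Even m ∧ Fintype.card F % 4 = 3) := by
  have h1 : (Even m ∧ Fintype.card F % 4 = 3) ↔ (Odd (m + 1) ∧ Fintype.card F % 4 = 3) := by
    rw [Nat.odd_add_one, Nat.not_odd_iff_even]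
  rw [← neg_mem_iff, h1, ← pow_mod_four_eq_three _ _ hodd, minusQF_coe]
  exact Cfsg.Agent.S0791.result rfl hodd (m + 1) (by omega) a b hab

end minus

end Cfsg.Agent.Lib.Helper6.OA
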