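import Mathlib
import Cfsg.Agent.Lib.Helper6.OA.Inst
import Cfsg.Agent.Lib.Helper6.OA.Diag
import Cfsg.Agent.Lib.Helper6.OA.Cls

set_option autoImplicit false
set_option linter.unusedSectionVars false

/-!
# `Inndiag` for the standard plus and minus forms, `q` odd
-/

namespace Cfsg.Agent.Lib.Helper6.OA

open Matrix QuadraticMap Module
open Cfsg.Agent.Lib.Helper18 Cfsg.Agent.Lib.Helper18.OmegaCenter

section general

variable {ι : Type} [Fintype ι] [DecidableEq ι] {F : Type*} [Field F] [Fintype F]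
variable {Q : QuadraticForm F (ι → F)} {k : ℕ} {ν : Fˣ} {D : ↥(GO ⇑Q)}

theorem Setup.autSubgroupOf_eq_ID (S : Setup Q k ν D) (P : Matrix ι ι F → Prop)
    (hP : ∀ g : ↥(GO ⇑Q), P (g.1 : Matrix ι ι F) ↔ eps' Q S.hv k g = 1) :
    Cfsg.autSubgroupOf (fun β : Cfsg.POmega F ⇑Q ≃* Cfsg.POmega F ⇑Q =>
      ∃ g : GL ι F, g ∈ Geo.quadSimilarityGroup (F := F) ⇑Q ∧ P (g : Matrix ι ι F) ∧
        Cfsg.IsInducedBySemilinearPOmega ⇑Q g (RingEquiv.refl F) β) = S.ID := by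
  have h1 := autSubgroupOf_eq ⇑Q {g : GL ι F | g ∈ GO ⇑Q ∧ P (g : Matrix ι ι F)}
    (fun g hg => hg.1)
  have h2 : (fun β : Cfsg.POmega F ⇑Q ≃* Cfsg.POmega F ⇑Q =>
      ∃ g : GL ι F, g ∈ Geo.quadSimilarityGroup (F := F) ⇑Q ∧ P (g : Matrix ι ι F) ∧
        Cfsg.IsInducedBySemilinearPOmega ⇑Q g (RingEquiv.refl F) β) =
      (fun β : Cfsg.POmega F ⇑Q ≃* Cfsg.POmega F ⇑Q =>
      ∃ g : GL ι F, g ∈ {g : GL ι F | g ∈ GO ⇑Q ∧ P (g : Matrix ι ι F)} ∧
        Cfsg.IsInducedBySemilinearPOmega ⇑Q g (RingEquiv.refl F) β) := by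
    funext β
    apply propext
    constructor
    · rintro ⟨g, a, b, c⟩
      exact ⟨g, ⟨a, b⟩, c⟩
    · rintro ⟨g, ⟨a, b⟩, c⟩
      exact ⟨g, a, b, c⟩
  rw [h2, h1]
  unfold Setup.ID
  congr 1
  have h3 : {g : ↥(GO ⇑Q) | g.1 ∈ {g : GL ι F | g ∈ GO ⇑Q ∧ P (g : Matrix ι ι F)}} =
      (S.eps.ker : Set ↥(GO ⇑Q)) := by
    ext g
    simp only [Set.mem_ofPred_eq, SetLike.mem_coe, MonoidHom.mem_ker]
    rw [S.eps_eq_one_iff, ← hP]
    exact ⟨fun h => h.2, fun h => ⟨g.2, h⟩⟩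
  rw [h3, Subgroup.closure_eq]

end general

section plus

open Cfsg.Agent.Lib.Helper49

variable {F : Type*} [Field F] {m : ℕ}

theorem plusE_mulVec_inl (c : F) (v : Fin m ⊕ Fin m → F) (i : Fin m) :
    (Matrix.fromBlocks (c • (1 : Matrix (Fin m) (Fin m) F)) 0 0 (1 : Matrix (Fin m) (Fin m) F) *ᵥ v)
      (Sum.inl i) = c * v (Sum.inl i) := by
  simp [Matrix.mulVec, dotProduct, Matrix.one_apply]

theorem plusE_mulVec_inr (c : F) (v : Fin m ⊕ Fin m → F) (i : Fin m) :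
    (Matrix.fromBlocks (c • (1 : Matrix (Fin m) (Fin m) F)) 0 0 (1 : Matrix (Fin m) (Fin m) F) *ᵥ v)
      (Sum.inr i) = v (Sum.inr i) := by
  simp [Matrix.mulVec, dotProduct, Matrix.one_apply]

/-- the similarity `diag(c, 1)` of the hyperbolic form -/
theorem exists_plusE (m : ℕ) (c : Fˣ) : ∃ E : ↥(GO ⇑(plusQF m F)),
    (E.1 : Matrix (Fin m ⊕ Fin m) (Fin m ⊕ Fin m) F) =
      Matrix.fromBlocks ((c : F) • (1 : Matrix (Fin m) (Fin m) F)) 0 0 1 ∧
    ∀ v, plusQF m F ((E.1 : Matrix (Fin m ⊕ Fin m) (Fin m ⊕ Fin m) F) *ᵥ v) = c * plusQF m F v := by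
  have hc := c.ne_zero
  let g : GL (Fin m ⊕ Fin m) F :=
    ⟨Matrix.fromBlocks ((c : F) • (1 : Matrix (Fin m) (Fin m) F)) 0 0 1,
     Matrix.fromBlocks ((c : F)⁻¹ • (1 : Matrix (Fin m) (Fin m) F)) 0 0 1, by
      rw [Matrix.fromBlocks_multiply]
      simp [smul_smul], by
      rw [Matrix.fromBlocks_multiply]
      simp [smul_smul]⟩
  have key : ∀ v, plusQF m F ((g : Matrix (Fin m ⊕ Fin m) (Fin m ⊕ Fin m) F) *ᵥ v) =
      c * plusQF m F v := by
    intro v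
    rw [plusQF_coe]
    simp only [Cfsg.quadFormPlus, Finset.mul_sum]
    apply Finset.sum_congr rfl
    intro i _
    show (Matrix.fromBlocks ((c : F) • (1 : Matrix (Fin m) (Fin m) F)) 0 0 1 *ᵥ v) (Sum.inl i) *
      (Matrix.fromBlocks ((c : F) • (1 : Matrix (Fin m) (Fin m) F)) 0 0 1 *ᵥ v) (Sum.inr i) = _
    rw [plusE_mulVec_inl, plusE_mulVec_inr]
    ring
  exact ⟨⟨g, ⟨c, key⟩⟩, rfl, key⟩

theorem det_plusE (c : F) :
    (Matrix.fromBlocks (c • (1 : Matrix (Fin m) (Fin m) F)) 0 0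
      (1 : Matrix (Fin m) (Fin m) F)).det = c ^ m := by
  rw [Matrix.det_fromBlocks_zero₂₁, Matrix.det_smul, Matrix.det_one]
  simp

theorem det_plusD (c : F) :
    (Matrix.fromBlocks 0 (c • (1 : Matrix (Fin m) (Fin m) F))
      (1 : Matrix (Fin m) (Fin m) F) 0).det = c ^ m * (-1) ^ m := by
  have : Matrix.fromBlocks 0 (c • (1 : Matrix (Fin m) (Fin m) F))
      (1 : Matrix (Fin m) (Fin m) F) 0 =
      Matrix.fromBlocks (c • (1 : Matrix (Fin m) (Fin m) F)) 0 0 (1 : Matrix (Fin m) (Fin m) F) *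
      Matrix.fromBlocks (0 : Matrix (Fin m) (Fin m) F) (1 : Matrix (Fin m) (Fin m) F)
      (1 : Matrix (Fin m) (Fin m) F) (0 : Matrix (Fin m) (Fin m) F) := by
    rw [Matrix.fromBlocks_multiply]
    simp
  rw [this, Matrix.det_mul, det_plusE, det_antidiag]

variable [Fintype F] {ν : Fˣ} {D : ↥(GO ⇑(plusQF m F))}

/-- **plus type, `q` odd**: a similarity preserves the two classes iff `det = μ^m` -/
theorem preserves_plus_iff (S : Setup (plusQF m F) m ν D) (g : ↥(GO ⇑(plusQF m F))) :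
    Cfsg.PreservesSingularClasses ⇑(plusQF m F)
      (g.1 : Matrix (Fin m ⊕ Fin m) (Fin m ⊕ Fin m) F) ↔ eps' (plusQF m F) S.hv m g = 1 := by
  obtain ⟨E, hE, hEQ⟩ := exists_plusE (F := F) m (mu (plusQF m F) S.hv g)
  have hmu : mu (plusQF m F) S.hv E = mu (plusQF m F) S.hv g :=
    Units.ext (mu_unique (plusQF m F) S.hv E _ hEQ)
  apply preserves_iff_eps' S.h2 S.nd isLagr_stdLagr S.hv m g E _ _ hmu.symm
  · apply Submodule.eq_of_le_of_finrank_eq
    · rintro _ ⟨v, hv, rfl⟩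
      rw [SetLike.mem_coe, mem_stdLagr] at hv
      rw [mem_stdLagr]
      intro i
      rw [Matrix.toLin'_apply, hE, plusE_mulVec_inr, hv i]
    · rw [← lin_coe]
      exact LinearEquiv.finrank_map_eq _ _
  · show GeneralLinearGroup.det E.1 * ((mu (plusQF m F) S.hv E)⁻¹) ^ m = 1
    rw [hmu]
    apply Units.ext
    rw [Units.val_mul, GeneralLinearGroup.val_det_apply, hE, det_plusE, ← Units.val_pow_eq_pow_val,
      ← Units.val_mul, inv_pow, mul_inv_cancel]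

theorem eps'_plusD (S : Setup (plusQF m F) m ν D)
    (hD : (D.1 : Matrix (Fin m ⊕ Fin m) (Fin m ⊕ Fin m) F) = Matrix.fromBlocks 0 ((ν : F) • 1) 1 0) :
    eps' (plusQF m F) S.hv m D = (-1) ^ m := by
  show GeneralLinearGroup.det D.1 * ((mu (plusQF m F) S.hv D)⁻¹) ^ m = _
  rw [S.mu_D]
  apply Units.ext
  rw [Units.val_mul, GeneralLinearGroup.val_det_apply, hD, det_plusD]
  simp only [Units.val_pow_eq_pow_val, Units.val_inv_eq_inv_val, Units.val_neg, Units.val_one]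
  have := pow_ne_zero m ν.ne_zero
  rw [inv_pow]
  field_simp

theorem eps_plusD_of_even (S : Setup (plusQF m F) m ν D)
    (hD : (D.1 : Matrix (Fin m ⊕ Fin m) (Fin m ⊕ Fin m) F) = Matrix.fromBlocks 0 ((ν : F) • 1) 1 0)
    (hm : Even m) : S.eps D = 1 := by
  rw [S.eps_eq_one_iff, eps'_plusD S hD, hm.neg_one_pow]

theorem eps_plusD_of_odd (S : Setup (plusQF m F) m ν D)
    (hD : (D.1 : Matrix (Fin m ⊕ Fin m) (Fin m ⊕ Fin m) F) = Matrix.fromBlocks 0 ((ν : F) • 1) 1 0)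
    (hm : Odd m) : S.eps D = -1 := by
  rcases Int.units_eq_one_or (S.eps D) with h | h
  · rw [S.eps_eq_one_iff, eps'_plusD S hD, hm.neg_one_pow] at h
    exact absurd h S.neg_one_ne_one
  · exact h

/-- `Inndiag(PΩ⁺)` written for an arbitrary function `Q` -/
def inndiagOf {ι : Type} [Fintype ι] [DecidableEq ι] {F : Type*} [Field F] (Q : (ι → F) → F)
    (P : Matrix ι ι F → Prop) : Subgroup (MulAut (Cfsg.POmega F Q)) :=
  Cfsg.autSubgroupOf (fun β : Cfsg.POmega F Q ≃* Cfsg.POmega F Q =>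
      ∃ g : GL ι F, g ∈ Geo.quadSimilarityGroup (F := F) Q ∧ P (g : Matrix ι ι F) ∧
        Cfsg.IsInducedBySemilinearPOmega Q g (RingEquiv.refl F) β)

theorem inndiagOf_plus (S : Setup (plusQF m F) m ν D) :
    inndiagOf ⇑(plusQF m F) (Cfsg.PreservesSingularClasses ⇑(plusQF m F)) = S.ID :=
  S.autSubgroupOf_eq_ID _ (preserves_plus_iff S)

end plus

end Cfsg.Agent.Lib.Helper6.OA
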