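import Mathlib
import Cfsg.Agent.Lib.Helper6.OA.InstDiag
import Cfsg.Agent.Lib.Helper6.OA.BaseChange
import Cfsg.Agent.S2679

set_option autoImplicit false
set_option linter.unusedSectionVars false

/-!
# `Inndiag` for the standard minus form, `q` odd
-/

namespace Cfsg.Agent.Lib.Helper6.OA

open Matrix QuadraticMap Module
open Cfsg.Agent.Lib.Helper49

section lagr

variable {K : Type*} [Field K] (m : ℕ) (α : K)

/-- the linear map whose kernel is the Lagrangian `y = 0, z₁ = α z₂` -/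
noncomputable def minusLagrMap : (((Fin m ⊕ Fin m) ⊕ Fin 2) → K) →ₗ[K] (Fin m → K) × K :=
  LinearMap.prod (LinearMap.funLeft K K (fun i : Fin m => (Sum.inl (Sum.inr i) : (Fin m ⊕ Fin m) ⊕ Fin 2)))
    (LinearMap.proj (Sum.inr 0) - α • LinearMap.proj (Sum.inr 1))

theorem mem_ker_minusLagrMap (v : ((Fin m ⊕ Fin m) ⊕ Fin 2) → K) :
    v ∈ LinearMap.ker (minusLagrMap m α) ↔
      (∀ i, v (Sum.inl (Sum.inr i)) = 0) ∧ v (Sum.inr 0) = α * v (Sum.inr 1) := by
  rw [LinearMap.mem_ker, minusLagrMap, LinearMap.prod_apply, Function.prod_apply, Prod.mk_eq_zero]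
  constructor
  · rintro ⟨h1, h2⟩
    refine ⟨fun i => congrFun h1 i, ?_⟩
    simpa [sub_eq_zero] using h2
  · rintro ⟨h1, h2⟩
    refine ⟨funext h1, ?_⟩
    simpa [sub_eq_zero] using h2

theorem minusLagrMap_surjective : Function.Surjective (minusLagrMap m α) := by
  rintro ⟨y, c⟩
  refine ⟨Sum.elim (Sum.elim 0 y) ![c, 0], ?_⟩
  rw [minusLagrMap, LinearMap.prod_apply, Function.prod_apply]
  ext
  · simp [LinearMap.funLeft_apply]
  · simp

theorem finrank_ker_minusLagrMap : finrank K (LinearMap.ker (minusLagrMap m α)) = m + 1 := by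
  have h1 := LinearMap.finrank_range_add_finrank_ker (minusLagrMap m α)
  rw [LinearMap.range_eq_top.2 (minusLagrMap_surjective m α), finrank_top] at h1
  simp only [finrank_prod, finrank_fintype_fun_eq_card, Fintype.card_fin, finrank_self,
    Fintype.card_sum] at h1
  omega

theorem isLagr_minus {α β a b : K} (ha : α + β = -a) (hb : α * β = b) (hne : α ≠ β) :
    (polarBilin (minusQF m K a b)).Nondegenerate ∧
      IsLagr (minusQF m K a b) (LinearMap.ker (minusLagrMap m α)) := by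
  have hnd : (polarBilin (minusQF m K a b)).Nondegenerate := by
    apply minusQF_nondegenerate
    have : 4 * b - a ^ 2 = -((α - β) ^ 2) := by
      have : a = -(α + β) := by rw [ha, neg_neg]
      rw [this, ← hb]; ring
    rw [this]
    exact neg_ne_zero.2 (pow_ne_zero 2 (sub_ne_zero.2 hne))
  refine ⟨hnd, ?_⟩
  apply isLagr_of_finrank hnd
  · intro v hv
    rw [mem_ker_minusLagrMap] at hv
    rw [minusQF_coe]
    unfold Cfsg.quadFormMinus
    have : a = -(α + β) := by rw [ha, neg_neg]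
    rw [hv.2, this, ← hb]
    simp only [hv.1, mul_zero, Finset.sum_const_zero]
    ring
  · rw [finrank_ker_minusLagrMap]
    simp
    ring

end lagr

section main

variable {F : Type*} [Field F] {m : ℕ} {a b : F}

theorem minus_compat (K : Type*) [Field K] [Algebra F K] (v : ((Fin m ⊕ Fin m) ⊕ Fin 2) → F) :
    minusQF m K (algebraMap F K a) (algebraMap F K b) (rat K v) =
      algebraMap F K (minusQF m F a b v) := by
  rw [minusQF_coe, minusQF_coe]
  simp [Cfsg.quadFormMinus, rat]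

variable [Fintype F] {ν : Fˣ} {D : ↥(GO ⇑(minusQF m F a b))}

theorem preserves_minus_K_iff (S : Setup (minusQF m F a b) (m + 1) ν D)
    (hab : ∀ z₁ z₂ : F, z₁ ^ 2 + a * z₁ * z₂ + b * z₂ ^ 2 = 0 → z₁ = 0 ∧ z₂ = 0)
    (K : Type*) [Field K] [Algebra F K] (hK : Module.finrank F K = 2)
    (g : ↥(GO ⇑(minusQF m F a b))) :
    Cfsg.PreservesSingularClasses (Cfsg.quadFormMinus m K (algebraMap F K a) (algebraMap F K b))
      ((g.1 : Matrix ((Fin m ⊕ Fin m) ⊕ Fin 2) ((Fin m ⊕ Fin m) ⊕ Fin 2) F).map (algebraMap F K)) ↔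
      eps' (minusQF m F a b) S.hv (m + 1) g = 1 := by
  haveI : Module.Finite F K := Module.finite_of_finrank_pos (by omega)
  haveI : Finite K := Module.finite_of_finite F
  cases nonempty_fintype K
  obtain ⟨α, β, hne, hs, hp⟩ := Cfsg.Agent.S2679.exists_roots hK a b hab
  obtain ⟨hnd, hL⟩ := isLagr_minus m hs hp hne
  have h2K : (2 : K) ≠ 0 := by
    intro h
    apply S.h2
    apply (algebraMap F K).injective
    rw [map_zero, map_ofNat]
    exact h
  have hc := minus_compat (m := m) (a := a) (b := b) K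
  have hv' : ∃ v, minusQF m K (algebraMap F K a) (algebraMap F K b) v ≠ 0 := by
    obtain ⟨v, hv⟩ := S.hv
    refine ⟨rat K v, ?_⟩
    rw [hc]
    intro h
    exact hv ((algebraMap F K).injective (by rw [h, map_zero]))
  obtain ⟨l, hl⟩ := isSquare_algebraMap hK S.h2 (mu (minusQF m F a b) S.hv g : F)
  have hl0 : l ≠ 0 := by
    rintro rfl
    rw [mul_zero] at hl
    exact (mu (minusQF m F a b) S.hv g).ne_zero ((algebraMap F K).injective (by rw [hl, map_zero]))
  rw [← minusQF_coe, ← bc_coe hc g]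
  refine (preserves_iff_eps' h2K hnd hL hv' (m + 1) (bc hc g)
    (sc _ (Units.mk0 l hl0)) ?_ ?_ ?_).trans (eps'_bc_eq_one_iff hc S.hv hv' (m + 1) g)
  · rw [sc_coe, map_smul, Submodule.map_smul _ _ _ (by simpa using hl0), Matrix.toLin'_one,
      Submodule.map_id]
  · apply eps'_sc
    simp
    ring
  · rw [mu_bc hc S.hv hv', mu_sc]
    apply Units.ext
    rw [Units.coe_map, Units.val_mul, Units.val_mk0]
    exact hl

/-- **minus type, `q` odd**: a similarity preserves the two classes (over the quadratic extension)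
iff `det = μ^(m+1)` -/
theorem preservesMinus_iff (S : Setup (minusQF m F a b) (m + 1) ν D)
    (hab : ∀ z₁ z₂ : F, z₁ ^ 2 + a * z₁ * z₂ + b * z₂ ^ 2 = 0 → z₁ = 0 ∧ z₂ = 0)
    (g : ↥(GO ⇑(minusQF m F a b))) :
    Cfsg.PreservesSingularClassesMinus m a b
      (g.1 : Matrix ((Fin m ⊕ Fin m) ⊕ Fin 2) ((Fin m ⊕ Fin m) ⊕ Fin 2) F) ↔
      eps' (minusQF m F a b) S.hv (m + 1) g = 1 := by
  constructor
  · rintro ⟨K, _, _, hK, h⟩
    exact (preserves_minus_K_iff S hab K hK g).1 h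
  · intro h
    haveI : Fact (∀ r : F, r ^ 2 ≠ -b + -a * r) := ⟨fun r hr => by
      have := (hab r 1 (by rw [hr]; ring)).2
      exact one_ne_zero this⟩
    exact ⟨QuadraticAlgebra F (-b) (-a), inferInstance, inferInstance,
      QuadraticAlgebra.finrank_eq_two _ _,
      (preserves_minus_K_iff S hab _ (QuadraticAlgebra.finrank_eq_two _ _) g).2 h⟩

theorem det_minusD (c u₁ u₂ : F) (hu : u₁ ^ 2 + a * u₁ * u₂ + b * u₂ ^ 2 = c) :
    (minusD m a b c u₁ u₂).det = c ^ (m + 1) * (-1) ^ (m + 1) := by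
  unfold minusD
  rw [Matrix.det_fromBlocks_zero₂₁, det_plusD, Matrix.det_fin_two_of, ← hu]
  ring

theorem eps'_minusD (S : Setup (minusQF m F a b) (m + 1) ν D) {u₁ u₂ : F}
    (hu : u₁ ^ 2 + a * u₁ * u₂ + b * u₂ ^ 2 = ν)
    (hD : (D.1 : Matrix ((Fin m ⊕ Fin m) ⊕ Fin 2) ((Fin m ⊕ Fin m) ⊕ Fin 2) F) =
      minusD m a b ν u₁ u₂) :
    eps' (minusQF m F a b) S.hv (m + 1) D = (-1) ^ (m + 1) := by
  show GeneralLinearGroup.det D.1 * ((mu (minusQF m F a b) S.hv D)⁻¹) ^ (m + 1) = _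
  rw [S.mu_D]
  apply Units.ext
  rw [Units.val_mul, GeneralLinearGroup.val_det_apply, hD, det_minusD _ _ _ hu]
  simp only [Units.val_pow_eq_pow_val, Units.val_inv_eq_inv_val, Units.val_neg, Units.val_one]
  have := pow_ne_zero (m + 1) ν.ne_zero
  rw [inv_pow]
  field_simp

theorem eps_minusD_of_even (S : Setup (minusQF m F a b) (m + 1) ν D) {u₁ u₂ : F}
    (hu : u₁ ^ 2 + a * u₁ * u₂ + b * u₂ ^ 2 = ν)
    (hD : (D.1 : Matrix ((Fin m ⊕ Fin m) ⊕ Fin 2) ((Fin m ⊕ Fin m) ⊕ Fin 2) F) =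
      minusD m a b ν u₁ u₂) (hm : Even m) : S.eps D = -1 := by
  rcases Int.units_eq_one_or (S.eps D) with h | h
  · rw [S.eps_eq_one_iff, eps'_minusD S hu hD, hm.add_one.neg_one_pow] at h
    exact absurd h S.neg_one_ne_one
  · exact h

theorem inndiagOf_minus (S : Setup (minusQF m F a b) (m + 1) ν D)
    (hab : ∀ z₁ z₂ : F, z₁ ^ 2 + a * z₁ * z₂ + b * z₂ ^ 2 = 0 → z₁ = 0 ∧ z₂ = 0) :
    inndiagOf ⇑(minusQF m F a b) (Cfsg.PreservesSingularClassesMinus m a b) = S.ID :=
  S.autSubgroupOf_eq_ID _ (preservesMinus_iff S hab)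

end main

end Cfsg.Agent.Lib.Helper6.OA
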