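import Mathlib
import Cfsg.Agent.Lib.Helper6.OA.InstDiagMinus
import Cfsg.Agent.Lib.Helper49.OmegaCrit
import Cfsg.Agent.Lib.Helper50.QuadMinus

set_option autoImplicit false
set_option linter.unusedSectionVars false

/-!
# The class character of the similarity group, in any characteristic
-/

namespace Cfsg.Agent.Lib.Helper6.OA

open Matrix QuadraticMap Module
open Cfsg.Agent.Lib.Helper49

section hom

variable {ι : Type} [Fintype ι] [DecidableEq ι] {F : Type*} [Field F]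
variable {Q : QuadraticForm F (ι → F)}

/-- the character of `GO(Q)` given by the action on the two classes of Lagrangians -/
noncomputable def clsHom (hQ : (polarBilin Q).Nondegenerate) {L : Submodule F (ι → F)}
    (hL : IsLagr Q L) : ↥(GO ⇑Q) →* Multiplicative (ZMod 2) where
  toFun g := Multiplicative.ofAdd (((finrank F L +
    finrank F ↥(L ⊓ L.map (Matrix.toLin' (g.1 : Matrix ι ι F))) : ℕ)) : ZMod 2)
  map_one' := by
    have : L.map (Matrix.toLin' (((1 : ↥(GO ⇑Q)).1 : GL ι F) : Matrix ι ι F)) = L := by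
      simp
    rw [this, inf_idem]
    change Multiplicative.ofAdd _ = Multiplicative.ofAdd 0
    rw [Multiplicative.ofAdd.injective.eq_iff, ZMod.natCast_eq_zero_iff_even]
    exact Even.add_self _
  map_mul' g h := by
    rw [← ofAdd_add, ← Nat.cast_add]
    congr 1
    have h1 := even_par_mul hQ hL (isSim_lin Q g) (isSim_lin Q h)
    rw [← lin_mul, lin_coe, lin_coe, lin_coe] at h1
    rw [ZMod.natCast_eq_natCast_iff']
    rw [Nat.even_iff] at h1
    omega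

theorem clsHom_eq_one_iff (hQ : (polarBilin Q).Nondegenerate) {L : Submodule F (ι → F)}
    (hL : IsLagr Q L) (g : ↥(GO ⇑Q)) :
    clsHom hQ hL g = 1 ↔ Cfsg.PreservesSingularClasses ⇑Q (g.1 : Matrix ι ι F) := by
  rw [preserves_iff hQ hL]
  change Multiplicative.ofAdd _ = Multiplicative.ofAdd 0 ↔ _
  rw [Multiplicative.ofAdd.injective.eq_iff, ZMod.natCast_eq_zero_iff_even]

theorem clsHom_iO_of_reflProd (hQ : (polarBilin Q).Nondegenerate) {L : Submodule F (ι → F)}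
    (hL : IsLagr Q L) (h : ↥(Cfsg.isometryGroup F ⇑Q)) (vs : List (ι → F))
    (hvs : ∀ v ∈ vs, Q v ≠ 0) (e : isoEquiv Q h = reflProd Q vs) :
    clsHom hQ hL (iO Q h) = Multiplicative.ofAdd ((vs.length : ℕ) : ZMod 2) := by
  have h1 := hL.even_finrank_inf_map_reflProd hQ hL vs hvs
  rw [← e, ← mulVecLin_eq_isoEquiv, inf_idem] at h1
  change Multiplicative.ofAdd _ = Multiplicative.ofAdd _
  congr 1
  rw [ZMod.natCast_eq_natCast_iff']
  have h4 : Matrix.toLin' ((iO Q h).1 : Matrix ι ι F) =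
      Matrix.mulVecLin ((h : Matrix.GeneralLinearGroup ι F) : Matrix ι ι F) := rfl
  rw [h4]
  rw [Nat.even_iff] at h1
  omega

theorem isoEquiv_refl18 (v : ι → F) :
    isoEquiv Q (Cfsg.Agent.Lib.Helper18.refl Q v) = reflProd Q [v] := by
  rw [← MulEquiv.eq_symm_apply]
  apply Cfsg.Agent.Lib.Helper18.mat_injective
  show _ = ((((isoEquiv Q).symm (reflProd Q [v]) : ↥(Cfsg.isometryGroup F ⇑Q)) :
      Matrix.GeneralLinearGroup ι F) : Matrix ι ι F)
  rw [coe_isoEquiv_symm_reflProd]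
  simp

theorem clsHom_refl (hQ : (polarBilin Q).Nondegenerate) {L : Submodule F (ι → F)}
    (hL : IsLagr Q L) {v : ι → F} (hv : Q v ≠ 0) :
    clsHom hQ hL (iO Q (Cfsg.Agent.Lib.Helper18.refl Q v)) = Multiplicative.ofAdd 1 := by
  rw [clsHom_iO_of_reflProd hQ hL _ [v] (by simpa using hv) (isoEquiv_refl18 v)]
  simp

theorem ofAdd_one_ne_one : (Multiplicative.ofAdd (1 : ZMod 2)) ≠ 1 := by
  decide

/-- reflections interchange the two classes -/
theorem not_preserves_reflectionMatrix (hQ : (polarBilin Q).Nondegenerate)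
    {L : Submodule F (ι → F)} (hL : IsLagr Q L) {v : ι → F} (hv : Q v ≠ 0) :
    ¬ Cfsg.PreservesSingularClasses ⇑Q (Cfsg.reflectionMatrix ⇑Q v) := by
  intro h
  have h1 := (clsHom_eq_one_iff hQ hL (iO Q (Cfsg.Agent.Lib.Helper18.refl Q v))).2 h
  rw [clsHom_refl hQ hL hv] at h1
  exact ofAdd_one_ne_one h1

theorem clsHom_sc (hQ : (polarBilin Q).Nondegenerate) {L : Submodule F (ι → F)}
    (hL : IsLagr Q L) (c : Fˣ) : clsHom hQ hL (sc Q c) = 1 := by
  rw [clsHom_eq_one_iff]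
  apply preserves_of_map_eq hQ hL
  rw [sc_coe, map_smul, Submodule.map_smul _ _ _ c.ne_zero, Matrix.toLin'_one, Submodule.map_id]

end hom

section inndiag

variable {ι : Type} [Fintype ι] [DecidableEq ι] {F : Type*} [Field F]

theorem inndiagOf_eq_map (Q : (ι → F) → F) (P : Matrix ι ι F → Prop) (A : Subgroup ↥(GO Q))
    (hP : ∀ g : ↥(GO Q), P (g.1 : Matrix ι ι F) ↔ g ∈ A) : inndiagOf Q P = A.map (cG Q) := by
  have h1 := autSubgroupOf_eq Q {g : GL ι F | g ∈ GO Q ∧ P (g : Matrix ι ι F)}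
    (fun g hg => hg.1)
  have h2 : (fun β : Cfsg.POmega F Q ≃* Cfsg.POmega F Q =>
      ∃ g : GL ι F, g ∈ Geo.quadSimilarityGroup (F := F) Q ∧ P (g : Matrix ι ι F) ∧
        Cfsg.IsInducedBySemilinearPOmega Q g (RingEquiv.refl F) β) =
      (fun β : Cfsg.POmega F Q ≃* Cfsg.POmega F Q =>
      ∃ g : GL ι F, g ∈ {g : GL ι F | g ∈ GO Q ∧ P (g : Matrix ι ι F)} ∧
        Cfsg.IsInducedBySemilinearPOmega Q g (RingEquiv.refl F) β) := by
    funext β
    apply propext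
    constructor
    · rintro ⟨g, a, b, c⟩
      exact ⟨g, ⟨a, b⟩, c⟩
    · rintro ⟨g, ⟨a, b⟩, c⟩
      exact ⟨g, a, b, c⟩
  unfold inndiagOf
  rw [h2, h1]
  congr 1
  have h3 : {g : ↥(GO Q) | g.1 ∈ {g : GL ι F | g ∈ GO Q ∧ P (g : Matrix ι ι F)}} =
      (A : Set ↥(GO Q)) := by
    ext g
    simp only [Set.mem_ofPred_eq, SetLike.mem_coe]
    rw [← hP]
    exact ⟨fun h => h.2, fun h => ⟨g.2, h⟩⟩
  rw [h3, Subgroup.closure_eq]

/-- `Inndiag` is the image of the kernel of the class character (any characteristic) -/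
theorem inndiagOf_eq_ker {Q : QuadraticForm F (ι → F)} (hQ : (polarBilin Q).Nondegenerate)
    {L : Submodule F (ι → F)} (hL : IsLagr Q L) :
    inndiagOf ⇑Q (Cfsg.PreservesSingularClasses ⇑Q) = (clsHom hQ hL).ker.map (cG ⇑Q) :=
  inndiagOf_eq_map _ _ _ (fun g => by rw [MonoidHom.mem_ker, clsHom_eq_one_iff])

end inndiag

section char2

variable {ι : Type} [Fintype ι] [DecidableEq ι] {F : Type*} [Field F] [Fintype F]
variable {Q : QuadraticForm F (ι → F)}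

/-- characteristic two: a non-trivial character `O(Q) → C₂` has kernel `Ω(Q)` -/
theorem ker_eq_Omega_char_two (h2 : (2 : F) = 0) (hQ : (polarBilin Q).Nondegenerate)
    (hd : Fintype.card F ≠ 2 ∨ Fintype.card ι ≠ 4) [Nonempty ι]
    (Φ : ↥(Cfsg.isometryGroup F ⇑Q) →* Multiplicative (ZMod 2)) (hΦ : ∃ h, Φ h ≠ 1) :
    Φ.ker = Cfsg.Omega F ⇑Q := by
  have h1 : Cfsg.Omega F ⇑Q ≤ Φ.ker := Abelianization.commutator_subset_ker Φ
  have h3 := Subgroup.relIndex_mul_index h1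
  rw [index_Omega_char_two Q h2 hQ hd] at h3
  have h4 : Φ.ker.index ≠ 1 := by
    rw [Ne, Subgroup.index_eq_one]
    intro h
    obtain ⟨x, hx⟩ := hΦ
    apply hx
    have : x ∈ Φ.ker := by rw [h]; exact Subgroup.mem_top x
    exact this
  have h5 : Φ.ker.index = 2 := by
    rcases Nat.prime_two.eq_one_or_self_of_dvd _ ⟨_, (by rw [mul_comm]; exact h3.symm)⟩ with h | h
    · exact absurd h h4
    · exact h
  rw [h5] at h3
  have h6 : (Cfsg.Omega F ⇑Q).relIndex Φ.ker = 1 := by omega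
  exact le_antisymm (Subgroup.relIndex_eq_one.1 h6) h1

/-- characteristic two: a character of `GO(Q)`, trivial on scalars and non-trivial on `O(Q)`, has
kernel `F^* Ω(Q)` -/
theorem char_two_ker (h2 : (2 : F) = 0) (hQ : (polarBilin Q).Nondegenerate)
    (hd : Fintype.card F ≠ 2 ∨ Fintype.card ι ≠ 4) [Nonempty ι] (hv : ∃ v, Q v ≠ 0)
    (Ψ : ↥(GO ⇑Q) →* Multiplicative (ZMod 2)) (hsc : ∀ c, Ψ (sc Q c) = 1)
    (hΨ : ∃ h, Ψ (iO Q h) ≠ 1) (g : ↥(GO ⇑Q)) :
    Ψ g = 1 ↔ ∃ (c : Fˣ) (h : ↥(Cfsg.isometryGroup F ⇑Q)), h ∈ Cfsg.Omega F ⇑Q ∧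
      g = sc Q c * iO Q h := by
  have hk := ker_eq_Omega_char_two h2 hQ hd (Ψ.comp (iO Q)) hΨ
  constructor
  · intro hg
    obtain ⟨c, hc⟩ := isSquare_of_two_eq_zero h2 (mu Q hv g : F)
    have hc0 : c ≠ 0 := by
      rintro rfl
      exact (mu Q hv g).ne_zero (by rw [hc]; simp)
    obtain ⟨h, hh⟩ := exists_sc_mul_iO Q hv g (Units.mk0 c hc0) (Units.ext (by
      rw [hc, Units.val_mul, Units.val_mk0]))
    refine ⟨_, h, ?_, hh⟩
    rw [← hk, MonoidHom.mem_ker, MonoidHom.comp_apply]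
    rw [hh, map_mul, hsc, one_mul] at hg
    exact hg
  · rintro ⟨c, h, hh, rfl⟩
    rw [map_mul, hsc, one_mul]
    rw [← hk, MonoidHom.mem_ker, MonoidHom.comp_apply] at hh
    exact hh

theorem map_cG_eq_Inn (A : Subgroup ↥(GO ⇑Q))
    (hA : ∀ g, g ∈ A ↔ ∃ (c : Fˣ) (h : ↥(Cfsg.isometryGroup F ⇑Q)), h ∈ Cfsg.Omega F ⇑Q ∧
      g = sc Q c * iO Q h) : A.map (cG ⇑Q) = Cfsg.Inn (Cfsg.POmega F ⇑Q) := by
  rw [Inn_eq]
  apply le_antisymm
  · rintro _ ⟨g, hg, rfl⟩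
    obtain ⟨c, h, hh, rfl⟩ := (hA g).1 hg
    exact ⟨iO Q h, (mem_OmE' _).2 ⟨h, rfl, hh⟩, by rw [map_mul, cG_sc, one_mul]⟩
  · rintro _ ⟨g, hg, rfl⟩
    obtain ⟨h, rfl, hh⟩ := (mem_OmE' _).1 hg
    exact ⟨iO Q h, (hA _).2 ⟨1, h, hh, by rw [map_one, one_mul]⟩, rfl⟩

/-- characteristic two, a Lagrangian exists: class-preserving similarities are `F^* Ω` -/
theorem preserves_iff_char_two (h2 : (2 : F) = 0) (hQ : (polarBilin Q).Nondegenerate)
    (hd : Fintype.card F ≠ 2 ∨ Fintype.card ι ≠ 4) [Nonempty ι] (hv : ∃ v, Q v ≠ 0)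
    {L : Submodule F (ι → F)} (hL : IsLagr Q L) (g : ↥(GO ⇑Q)) :
    Cfsg.PreservesSingularClasses ⇑Q (g.1 : Matrix ι ι F) ↔
      ∃ (c : Fˣ) (h : ↥(Cfsg.isometryGroup F ⇑Q)), h ∈ Cfsg.Omega F ⇑Q ∧ g = sc Q c * iO Q h := by
  rw [← clsHom_eq_one_iff hQ hL]
  obtain ⟨v, hv'⟩ := hv
  exact char_two_ker h2 hQ hd ⟨v, hv'⟩ (clsHom hQ hL) (clsHom_sc hQ hL)
    ⟨_, by rw [clsHom_refl hQ hL hv']; exact ofAdd_one_ne_one⟩ g

/-- characteristic two, a Lagrangian exists: `Inndiag = Inn` -/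
theorem inndiagOf_eq_Inn_char_two (h2 : (2 : F) = 0) (hQ : (polarBilin Q).Nondegenerate)
    (hd : Fintype.card F ≠ 2 ∨ Fintype.card ι ≠ 4) [Nonempty ι] (hv : ∃ v, Q v ≠ 0)
    {L : Submodule F (ι → F)} (hL : IsLagr Q L) :
    inndiagOf ⇑Q (Cfsg.PreservesSingularClasses ⇑Q) = Cfsg.Inn (Cfsg.POmega F ⇑Q) := by
  rw [inndiagOf_eq_ker hQ hL]
  apply map_cG_eq_Inn
  intro g
  rw [MonoidHom.mem_ker, clsHom_eq_one_iff, preserves_iff_char_two h2 hQ hd hv hL]

end char2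

section bcHom

variable {ι : Type} [Fintype ι] [DecidableEq ι] {F K : Type*} [Field F] [Field K] [Algebra F K]
variable {QF : QuadraticForm F (ι → F)} {QK : QuadraticForm K (ι → K)}

/-- base change as a homomorphism -/
noncomputable def bcHom (hc : ∀ v : ι → F, QK (rat K v) = algebraMap F K (QF v)) :
    ↥(GO ⇑QF) →* ↥(GO ⇑QK) where
  toFun := bc hc
  map_one' := by
    apply eq_of_coe_eq
    rw [bc_coe]
    simp
  map_mul' g h := by
    apply eq_of_coe_eq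
    rw [bc_coe, coe_mul', coe_mul', bc_coe, bc_coe, Matrix.map_mul]

theorem bcHom_coe (hc : ∀ v : ι → F, QK (rat K v) = algebraMap F K (QF v)) (g : ↥(GO ⇑QF)) :
    ((bcHom hc g).1 : Matrix ι ι K) = (g.1 : Matrix ι ι F).map (algebraMap F K) := rfl

theorem bcHom_sc (hc : ∀ v : ι → F, QK (rat K v) = algebraMap F K (QF v)) (c : Fˣ) :
    bcHom hc (sc QF c) = sc QK (Units.map (algebraMap F K : F →* K) c) := by
  apply eq_of_coe_eq
  rw [bcHom_coe, sc_coe, sc_coe]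
  ext i j
  by_cases h : i = j
  · subst h; simp
  · simp [h]

theorem polar_rat (hc : ∀ v : ι → F, QK (rat K v) = algebraMap F K (QF v)) (u v : ι → F) :
    polar ⇑QK (rat K u) (rat K v) = algebraMap F K (polar ⇑QF u v) := by
  unfold polar
  rw [← rat_add, hc, hc, hc, map_sub, map_sub]

theorem reflectionMatrix_map (hc : ∀ v : ι → F, QK (rat K v) = algebraMap F K (QF v))
    (v : ι → F) : (Cfsg.reflectionMatrix ⇑QF v).map (algebraMap F K) =
      Cfsg.reflectionMatrix ⇑QK (rat K v) := by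
  ext i j
  simp only [Cfsg.reflectionMatrix, Cfsg.polarVec, Matrix.map_apply, Matrix.sub_apply,
    Matrix.smul_apply, Matrix.vecMulVec_apply, smul_eq_mul, map_sub, map_mul, map_inv₀]
  rw [← rat_single (F := F) (K := K) j, polar_rat hc, hc]
  congr 1
  by_cases h : i = j
  · subst h; simp
  · simp [h]

theorem bcHom_iO_refl (hc : ∀ v : ι → F, QK (rat K v) = algebraMap F K (QF v)) (v : ι → F) :
    bcHom hc (iO QF (Cfsg.Agent.Lib.Helper18.refl QF v)) =
      iO QK (Cfsg.Agent.Lib.Helper18.refl QK (rat K v)) := by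
  apply eq_of_coe_eq
  rw [bcHom_coe, iO_coe, iO_coe, Cfsg.Agent.Lib.Helper18.mat_refl,
    Cfsg.Agent.Lib.Helper18.mat_refl, reflectionMatrix_map hc]

end bcHom

section instances

variable {F : Type*} [Field F] {m : ℕ}

theorem plus_hv (hm : 1 ≤ m) : ∃ v, plusQF m F v ≠ 0 := by
  refine ⟨Pi.single (Sum.inl ⟨0, hm⟩) 1 + Pi.single (Sum.inr ⟨0, hm⟩) 1, ?_⟩
  rw [plusQF_coe]
  unfold Cfsg.quadFormPlus
  rw [Finset.sum_eq_single (⟨0, hm⟩ : Fin m)]
  · simp
  · intro i _ hi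
    simp [Pi.single_apply, hi]
  · simp

theorem minus_hv (a b : F) : ∃ v, minusQF m F a b v ≠ 0 := by
  refine ⟨Pi.single (Sum.inr 0) 1, ?_⟩
  rw [minusQF_coe]
  unfold Cfsg.quadFormMinus
  simp

/-- plus type, any characteristic -/
theorem inndiagOf_plus_eq_ker :
    inndiagOf ⇑(plusQF m F) (Cfsg.PreservesSingularClasses ⇑(plusQF m F)) =
      (clsHom (plusQF_nondegenerate m F) isLagr_stdLagr).ker.map (cG ⇑(plusQF m F)) :=
  inndiagOf_eq_ker _ _

variable [Fintype F]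

/-- plus type, characteristic two: `Inndiag = Inn` -/
theorem inndiagOf_plus_char_two (h2 : (2 : F) = 0) (hm : 3 ≤ m) :
    inndiagOf ⇑(plusQF m F) (Cfsg.PreservesSingularClasses ⇑(plusQF m F)) =
      Cfsg.Inn (Cfsg.POmega F ⇑(plusQF m F)) := by
  haveI : Nonempty (Fin m ⊕ Fin m) := ⟨Sum.inl ⟨0, by omega⟩⟩
  exact inndiagOf_eq_Inn_char_two h2 (plusQF_nondegenerate m F)
    (Or.inr (by simp; omega)) (plus_hv (by omega)) isLagr_stdLagr

variable {a b : F}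

/-- minus type: the class character computed over a quadratic extension `K` -/
theorem exists_clsMinus_K
    (hab : ∀ z₁ z₂ : F, z₁ ^ 2 + a * z₁ * z₂ + b * z₂ ^ 2 = 0 → z₁ = 0 ∧ z₂ = 0)
    (K : Type*) [Field K] [Algebra F K] (hK : Module.finrank F K = 2) :
    ∃ Ψ : ↥(GO ⇑(minusQF m F a b)) →* Multiplicative (ZMod 2),
      (∀ g, Ψ g = 1 ↔ Cfsg.PreservesSingularClasses
        (Cfsg.quadFormMinus m K (algebraMap F K a) (algebraMap F K b))
        ((g.1 : Matrix ((Fin m ⊕ Fin m) ⊕ Fin 2) ((Fin m ⊕ Fin m) ⊕ Fin 2) F).map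
          (algebraMap F K))) ∧
      (∀ c, Ψ (sc _ c) = 1) ∧
      (∀ v, minusQF m F a b v ≠ 0 →
        Ψ (iO _ (Cfsg.Agent.Lib.Helper18.refl (minusQF m F a b) v)) = Multiplicative.ofAdd 1) := by
  haveI : Module.Finite F K := Module.finite_of_finrank_pos (by omega)
  haveI : Finite K := Module.finite_of_finite F
  cases nonempty_fintype K
  obtain ⟨α, β, hne, hs, hp⟩ := Cfsg.Agent.S2679.exists_roots hK a b hab
  obtain ⟨hnd, hL⟩ := isLagr_minus m hs hp hne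
  have hc := minus_compat (m := m) (a := a) (b := b) K
  refine ⟨(clsHom hnd hL).comp (bcHom hc), fun g => ?_, fun c => ?_, fun v hv => ?_⟩
  · rw [MonoidHom.comp_apply, clsHom_eq_one_iff, bcHom_coe, minusQF_coe]
  · rw [MonoidHom.comp_apply, bcHom_sc, clsHom_sc]
  · rw [MonoidHom.comp_apply, bcHom_iO_refl, clsHom_refl]
    rw [hc]
    intro h
    exact hv ((algebraMap F K).injective (by rw [h, map_zero]))

theorem quadFact
    (hab : ∀ z₁ z₂ : F, z₁ ^ 2 + a * z₁ * z₂ + b * z₂ ^ 2 = 0 → z₁ = 0 ∧ z₂ = 0) :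
    Fact (∀ r : F, r ^ 2 ≠ -b + -a * r) := ⟨fun r hr => by
    have := (hab r 1 (by rw [hr]; ring)).2
    exact one_ne_zero this⟩

theorem preserves_minus_K_iff_char_two (h2 : (2 : F) = 0) (hm : 2 ≤ m)
    (hab : ∀ z₁ z₂ : F, z₁ ^ 2 + a * z₁ * z₂ + b * z₂ ^ 2 = 0 → z₁ = 0 ∧ z₂ = 0)
    (hnd : (polarBilin (minusQF m F a b)).Nondegenerate)
    (K : Type*) [Field K] [Algebra F K] (hK : Module.finrank F K = 2)
    (g : ↥(GO ⇑(minusQF m F a b))) :
    Cfsg.PreservesSingularClasses (Cfsg.quadFormMinus m K (algebraMap F K a) (algebraMap F K b))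
      ((g.1 : Matrix ((Fin m ⊕ Fin m) ⊕ Fin 2) ((Fin m ⊕ Fin m) ⊕ Fin 2) F).map (algebraMap F K)) ↔
      ∃ (c : Fˣ) (h : ↥(Cfsg.isometryGroup F ⇑(minusQF m F a b))),
        h ∈ Cfsg.Omega F ⇑(minusQF m F a b) ∧ g = sc _ c * iO _ h := by
  obtain ⟨Ψ, h1, h3, h4⟩ := exists_clsMinus_K (m := m) hab K hK
  rw [← h1]
  obtain ⟨v, hv⟩ := minus_hv (m := m) a b
  haveI : Nonempty ((Fin m ⊕ Fin m) ⊕ Fin 2) := ⟨Sum.inr 0⟩
  exact char_two_ker h2 hnd (Or.inr (by simp; omega)) ⟨v, hv⟩ Ψ h3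
    ⟨_, by rw [h4 v hv]; exact ofAdd_one_ne_one⟩ g

theorem minus_nd
    (hab : ∀ z₁ z₂ : F, z₁ ^ 2 + a * z₁ * z₂ + b * z₂ ^ 2 = 0 → z₁ = 0 ∧ z₂ = 0) :
    (polarBilin (minusQF m F a b)).Nondegenerate := by
  apply minusQF_nondegenerate
  have := Cfsg.Agent.Lib.Helper50.Quad.disc_ne_zero a b hab
  intro h
  apply this
  linear_combination -h

/-- minus type, any characteristic: the predicate does not depend on the quadratic extension -/
theorem preservesMinus_iff_K (hm : 3 ≤ m)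
    (hab : ∀ z₁ z₂ : F, z₁ ^ 2 + a * z₁ * z₂ + b * z₂ ^ 2 = 0 → z₁ = 0 ∧ z₂ = 0)
    (K : Type*) [Field K] [Algebra F K] (hK : Module.finrank F K = 2)
    (g : ↥(GO ⇑(minusQF m F a b))) :
    Cfsg.PreservesSingularClassesMinus m a b
      (g.1 : Matrix ((Fin m ⊕ Fin m) ⊕ Fin 2) ((Fin m ⊕ Fin m) ⊕ Fin 2) F) ↔
    Cfsg.PreservesSingularClasses (Cfsg.quadFormMinus m K (algebraMap F K a) (algebraMap F K b))
      ((g.1 : Matrix ((Fin m ⊕ Fin m) ⊕ Fin 2) ((Fin m ⊕ Fin m) ⊕ Fin 2) F).map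
        (algebraMap F K)) := by
  by_cases h2 : (2 : F) = 0
  · rw [preserves_minus_K_iff_char_two h2 (by omega) hab (minus_nd hab) K hK]
    constructor
    · rintro ⟨K', _, _, hK', h⟩
      exact (preserves_minus_K_iff_char_two h2 (by omega) hab (minus_nd hab) K' hK' g).1 h
    · intro h
      haveI := quadFact hab
      exact ⟨QuadraticAlgebra F (-b) (-a), inferInstance, inferInstance,
        QuadraticAlgebra.finrank_eq_two _ _,
        (preserves_minus_K_iff_char_two h2 (by omega) hab (minus_nd hab) _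
          (QuadraticAlgebra.finrank_eq_two _ _) g).2 h⟩
  · have hodd : Odd (Fintype.card F) := by
      rw [Nat.odd_iff]
      apply FiniteField.odd_card_of_char_ne_two
      intro h
      apply h2
      have := ringChar.Nat.cast_ringChar (R := F)
      rw [h] at this
      exact_mod_cast this
    obtain ⟨ν, u₁, u₂, D, -, -, S⟩ := setup_minus hodd hm a b hab
    rw [preservesMinus_iff S hab, preserves_minus_K_iff S hab K hK]

/-- minus type, any characteristic: the class character -/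
theorem exists_clsMinus (hm : 3 ≤ m)
    (hab : ∀ z₁ z₂ : F, z₁ ^ 2 + a * z₁ * z₂ + b * z₂ ^ 2 = 0 → z₁ = 0 ∧ z₂ = 0) :
    ∃ Ψ : ↥(GO ⇑(minusQF m F a b)) →* Multiplicative (ZMod 2),
      (∀ g, Ψ g = 1 ↔ Cfsg.PreservesSingularClassesMinus m a b
        (g.1 : Matrix ((Fin m ⊕ Fin m) ⊕ Fin 2) ((Fin m ⊕ Fin m) ⊕ Fin 2) F)) ∧
      (∀ c, Ψ (sc _ c) = 1) ∧
      (∀ v, minusQF m F a b v ≠ 0 →
        Ψ (iO _ (Cfsg.Agent.Lib.Helper18.refl (minusQF m F a b) v)) = Multiplicative.ofAdd 1) := by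
  haveI := quadFact hab
  have hK' : Module.finrank F (QuadraticAlgebra F (-b) (-a)) = 2 :=
    QuadraticAlgebra.finrank_eq_two _ _
  obtain ⟨Ψ, h1, h3, h4⟩ := exists_clsMinus_K (m := m) hab (QuadraticAlgebra F (-b) (-a)) hK'
  exact ⟨Ψ, fun g => by rw [h1, preservesMinus_iff_K hm hab _ hK'], h3, h4⟩

theorem preservesMinus_iff_char_two (h2 : (2 : F) = 0) (hm : 3 ≤ m)
    (hab : ∀ z₁ z₂ : F, z₁ ^ 2 + a * z₁ * z₂ + b * z₂ ^ 2 = 0 → z₁ = 0 ∧ z₂ = 0)
    (g : ↥(GO ⇑(minusQF m F a b))) :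
    Cfsg.PreservesSingularClassesMinus m a b
      (g.1 : Matrix ((Fin m ⊕ Fin m) ⊕ Fin 2) ((Fin m ⊕ Fin m) ⊕ Fin 2) F) ↔
      ∃ (c : Fˣ) (h : ↥(Cfsg.isometryGroup F ⇑(minusQF m F a b))),
        h ∈ Cfsg.Omega F ⇑(minusQF m F a b) ∧ g = sc _ c * iO _ h := by
  haveI := quadFact hab
  have hK' : Module.finrank F (QuadraticAlgebra F (-b) (-a)) = 2 :=
    QuadraticAlgebra.finrank_eq_two _ _
  rw [preservesMinus_iff_K hm hab _ hK',
    preserves_minus_K_iff_char_two h2 (by omega) hab (minus_nd hab) _ hK']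

/-- minus type, characteristic two: `Inndiag = Inn` -/
theorem inndiagOf_minus_char_two (h2 : (2 : F) = 0) (hm : 3 ≤ m)
    (hab : ∀ z₁ z₂ : F, z₁ ^ 2 + a * z₁ * z₂ + b * z₂ ^ 2 = 0 → z₁ = 0 ∧ z₂ = 0) :
    inndiagOf ⇑(minusQF m F a b) (Cfsg.PreservesSingularClassesMinus m a b) =
      Cfsg.Inn (Cfsg.POmega F ⇑(minusQF m F a b)) := by
  obtain ⟨Ψ, h1, -, -⟩ := exists_clsMinus hm hab
  rw [inndiagOf_eq_map _ _ Ψ.ker (fun g => by rw [MonoidHom.mem_ker, h1])]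
  apply map_cG_eq_Inn
  intro g
  rw [MonoidHom.mem_ker, h1, preservesMinus_iff_char_two h2 hm hab]

end instances

end Cfsg.Agent.Lib.Helper6.OA
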